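/-
Linear characters of the maximal unipotent subgroup of a group with a root group datum.
-/
import Cfsg.Agent.Lib.Chev.RGD3
import Cfsg.Agent.Lib.T2.Des

set_option autoImplicit false

namespace Cfsg.Agent.T2I

open Cfsg.Agent.Chev

variable {ι I : Type*} [Fintype I] [DecidableEq I] {R : RSys ι I} {G : Type*} [Group G]

/-- every linear character of `U` kills the root subgroups of the non-simple positive roots -/
def Hom (P : PreRGD R G) : Prop :=
  ∀ l : P.U →* ℂˣ, ∀ r, R.IsPos r → (∀ i, r ≠ R.simple i) → ∀ x : P.U, (x : G) ∈ P.X r → l x = 1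

end Cfsg.Agent.T2I
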