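/-
Character theoretic preliminaries for doubly transitive actions of groups with a root group datum.
-/
import Cfsg.Agent.Lib.Chev.St
import Cfsg.Agent.Lib.Char.Linear
import Cfsg.Agent.Lib.T2I.A0

set_option autoImplicit false
set_option linter.unusedSectionVars false

namespace Cfsg.Agent.T2I

open Cfsg Cfsg.Agent.Char Cfsg.Agent.Fix Cfsg.Agent.Chev Cfsg.Agent.T2 MulAction
open scoped Classical ComplexConjugate

theorem incl_excl {I A : Type*} [DecidableEq I] [CommRing A] (K : Finset I) (t : I → Prop)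
    {_ : ∀ M : Finset I, Decidable (∀ k ∈ M, t k)} [Decidable (∀ k ∈ K, ¬ t k)] :
    ∑ M ∈ K.powerset, (-1 : A) ^ M.card * (if ∀ k ∈ M, t k then 1 else 0) =
      if ∀ k ∈ K, ¬ t k then 1 else 0 := by
  have h1 : ∑ M ∈ K.powerset, (-1 : A) ^ M.card * (if ∀ k ∈ M, t k then 1 else 0) =
      ∑ M ∈ (K.filter t).powerset, (-1 : A) ^ M.card := by
    simp only [mul_ite, mul_one, mul_zero]
    rw [← Finset.sum_filter]
    refine Finset.sum_congr ?_ fun _ _ => rfl
    ext M
    simp only [Finset.mem_filter, Finset.mem_powerset, Finset.subset_iff]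
    exact ⟨fun h x hx => ⟨h.1 hx, h.2 x hx⟩, fun h => ⟨fun x hx => (h hx).1, fun x hx => (h hx).2⟩⟩
  have h2 := congrArg (Int.cast : ℤ → A) (Finset.sum_powerset_neg_one_pow_card (x := K.filter t))
  push_cast at h2
  rw [h1, h2]
  simp only [Finset.filter_eq_empty_iff]

section grp
variable {U : Type*} [Group U] [Finite U] {p : ℕ} [hp : Fact p.Prime]

theorem exists_lin_of_ne_top (hU : IsPGroup p U) {A : Subgroup U} (hA : A ≠ ⊤) :
    ∃ l : U →* ℂˣ, l ≠ 1 ∧ ∀ a ∈ A, l a = 1 := by
  obtain ⟨M, hM, hAM⟩ := (eq_top_or_exists_le_coatom A).resolve_left hA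
  have := hU.isNilpotent
  have hn : M.Normal := Subgroup.NormalizerCondition.normal_of_coatom M Group.normalizerCondition_of_isNilpotent hM
  have hnt : Nontrivial (U ⧸ M) := by
    rw [QuotientGroup.nontrivial_iff]; exact hM.1
  have hc : Subgroup.center (U ⧸ M) = ⊤ := by
    have h1 := (hU.to_quotient M).center_nontrivial
    have h2 : M < (Subgroup.center (U ⧸ M)).comap (QuotientGroup.mk' M) := by
      refine lt_of_le_of_ne (fun x hx => ?_) fun e => ?_
      · rw [Subgroup.mem_comap, QuotientGroup.mk'_apply, (QuotientGroup.eq_one_iff x).mpr hx]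
        exact one_mem _
      · obtain ⟨⟨z, hz⟩, hz1⟩ := exists_ne (1 : Subgroup.center (U ⧸ M))
        obtain ⟨z, rfl⟩ := QuotientGroup.mk_surjective z
        have : z ∈ M := by rw [e]; exact hz
        exact hz1 (Subtype.ext ((QuotientGroup.eq_one_iff z).mpr this))
    rw [eq_top_iff]
    intro x _
    obtain ⟨x, rfl⟩ := QuotientGroup.mk_surjective x
    have : x ∈ (Subgroup.center (U ⧸ M)).comap (QuotientGroup.mk' M) := by rw [hM.2 _ h2]; trivial
    exact this
  have : IsMulCommutative (U ⧸ M) := ⟨⟨fun a b =>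
    (Subgroup.mem_center_iff.mp (by rw [hc]; trivial : b ∈ Subgroup.center _) a)⟩⟩
  obtain ⟨g, hg⟩ := exists_ne (1 : U ⧸ M)
  obtain ⟨θ, hθ⟩ := exists_unitsHom_ne_one hg
  obtain ⟨g, rfl⟩ := QuotientGroup.mk_surjective g
  refine ⟨θ.comp (QuotientGroup.mk' M), fun e => hθ (by simpa using DFunLike.congr_fun e g), fun a ha => ?_⟩
  rw [MonoidHom.comp_apply, QuotientGroup.mk'_apply, (QuotientGroup.eq_one_iff a).mpr (hAM ha), map_one]

theorem dvd_card_lin [Fintype (U →* ℂˣ)] (hU : IsPGroup p U) (S : U → Prop)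
    {_ : DecidablePred fun l : U →* ℂˣ => ∀ a, S a → l a = 1} (h : ∃ l : U →* ℂˣ, l ≠ 1 ∧ ∀ a, S a → l a = 1) :
    p ∣ (Finset.univ.filter fun l : U →* ℂˣ => ∀ a, S a → l a = 1).card := by
  let L : Subgroup (U →* ℂˣ) :=
    { carrier := {l | ∀ a, S a → l a = 1}
      mul_mem' := fun {a b} ha hb x hx => by simp [ha x hx, hb x hx]
      one_mem' := fun _ _ => rfl
      inv_mem' := fun {a} ha x hx => by simp [ha x hx] }
  obtain ⟨n, hn⟩ := IsPGroup.iff_card.mp hU
  have hL : IsPGroup p L := fun l => ⟨n, Subtype.ext (MonoidHom.ext fun u => by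
    simp only [SubmonoidClass.coe_pow, MonoidHom.pow_apply, OneMemClass.coe_one, MonoidHom.one_apply]
    rw [← map_pow, ← hn, pow_card_eq_one', map_one])⟩
  obtain ⟨l, hl, hl'⟩ := h
  have : Nontrivial L := ⟨⟨⟨l, hl'⟩, 1, fun e => hl (congrArg Subtype.val e)⟩⟩
  obtain ⟨k, hk, e⟩ := hL.nontrivial_iff_card.mp this
  have e2 : Nat.card L = (Finset.univ.filter fun l : U →* ℂˣ => ∀ a, S a → l a = 1).card := by
    rw [← Fintype.card_subtype, ← Nat.card_eq_fintype_card]; rfl
  rw [← e2, e]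
  exact dvd_pow_self _ hk.ne'

end grp

variable {G : Type*} [Group G] [Fintype G]

theorem inner_lin_fix {C A : Subgroup G} (hA : A ≤ C) (l : C →* ℂˣ) :
    classInner (fun c : C => (l c : ℂ)) (fun c : C => fix C A c) =
      if ∀ c : C, (c : G) ∈ A → l c = 1 then 1 else 0 := by
  have e : (fun c : C => fix C A c) = indFun (A.subgroupOf C) 1 := by
    rw [← fixedPointCharacter_eq_indFun]; ext c; exact fix_coe hA c
  rw [e, inner_indFun_right _ _ (isClass_of_irr (isIrr_unitsHom l))]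
  have := inner_unitsHom (l.comp (A.subgroupOf C).subtype) 1
  refine Eq.trans ?_ (this.trans (if_congr ?_ rfl rfl))
  · rfl
  · exact ⟨fun h c hc => DFunLike.congr_fun h ⟨c, hc⟩, fun h => MonoidHom.ext fun c => h c c.2⟩

theorem inner_one_fix {C A : Subgroup G} (hA : A ≤ C) :
    classInner (1 : C → ℂ) (fun c : C => fix C A c) = 1 := by
  exact (inner_lin_fix hA 1).trans (by simp)

theorem avg_mul_left {Q : Subgroup G} (f : G → ℂ) {u : G} (hu : u ∈ Q) (g : G) : avg Q f (u * g) = avg Q f g := by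
  simp only [avg, sum_ite_mem]
  congr 1
  exact Fintype.sum_equiv (Equiv.mulRight (⟨u, hu⟩ : Q)) _ _ fun v => by simp [mul_assoc]

theorem inner_avg {C Q : Subgroup G} (hQ : Q ≤ C) {φ : C → ℂ} (hφ : ∀ u c : C, (u : G) ∈ Q → φ (u * c) = φ c)
    (f : G → ℂ) : classInner φ (fun c : C => avg Q f c) = classInner φ (fun c : C => f c) := by
  rw [classInner, classInner]
  congr 1
  simp only [avg, sum_ite_mem, map_mul, map_inv₀, map_natCast, map_sum, Finset.mul_sum]
  rw [Finset.sum_comm]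
  have : ∀ u : Q, ∑ c : C, φ c * ((Nat.card Q : ℂ)⁻¹ * conj (f (u * c))) =
      (Nat.card Q : ℂ)⁻¹ * ∑ c : C, φ c * conj (f c) := fun u => by
    rw [Finset.mul_sum]
    refine Fintype.sum_equiv (Equiv.mulLeft (⟨u, hQ u.2⟩ : C)) _ _ fun c => ?_
    simp only [Equiv.coe_mulLeft, Subgroup.coe_mul]
    rw [hφ _ _ u.2]; ring
  simp only [this, Finset.sum_const, Finset.card_univ, nsmul_eq_mul]
  rw [← Nat.card_eq_fintype_card, ← mul_assoc, mul_inv_cancel₀ (card_ne Q), one_mul]

theorem inner_eq_zero_of {D ρ χ : G → ℂ} (hD : IsCharacter G D) (hρ : IsCharacter G ρ) (hχ : IsIrrCharacter G χ)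
    (h0 : classInner D ρ = 0) (h1 : classInner ρ χ ≠ 0) : classInner D χ = 0 := by
  obtain ⟨a, ha⟩ := exists_nat_inner hD (isChar_of_irr hχ)
  obtain ⟨b, hb⟩ := exists_nat_inner hD (isChar_sub_irr hρ hχ h1)
  rw [Char.inner_sub_right, h0, ha] at hb
  have : ((a + b : ℕ) : ℂ) = 0 := by push_cast; linear_combination -hb
  have : a + b = 0 := by exact_mod_cast this
  rw [ha]; simp [show a = 0 by omega]

theorem inner_fpc_one (A : Subgroup G) : classInner (fixedPointCharacter A) 1 = 1 := by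
  rw [inner_fixedPointCharacter_left _ isClass_one]; exact inner_one_one

theorem inner_lin_fpc (U H : Subgroup G) (l : U →* ℂˣ) [Fintype (DoubleCoset.Quotient (U : Set G) H)] :
    classInner (fun c : U => (l c : ℂ)) (fun c : U => fixedPointCharacter H c) =
      ∑ t : DoubleCoset.Quotient (U : Set G) H, if ∀ c : U, (c : G) ∈ cj t.out H → l c = 1 then 1 else 0 := by
  have e : (fun c : U => fixedPointCharacter H c) =
      ∑ t : DoubleCoset.Quotient (U : Set G) H, fun c : U => fix U (U ⊓ cj t.out H) c := by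
    ext c
    rw [← fix_top, Finset.sum_apply]
    refine mackey _ _ _ _ (fun x => ?_) (fun t _ t' _ c hc a ha e => ?_) c.2
    · obtain ⟨h, k, h1, h2, e⟩ := DoubleCoset.mk_out_eq_mul U H x
      exact ⟨_, Finset.mem_univ _, h⁻¹, inv_mem h1, k⁻¹, inv_mem h2, by rw [e]; group⟩
    · rw [← DoubleCoset.out_eq' U H t, ← DoubleCoset.out_eq' U H t', DoubleCoset.eq]
      exact ⟨c, hc, a⁻¹, inv_mem ha, by rw [← e]; group⟩
  rw [e, inner_sum_right]
  refine Finset.sum_congr rfl fun t _ => ?_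
  rw [inner_lin_fix inf_le_left]
  exact if_congr (forall_congr' fun c => by simp) rfl rfl

section perm
variable {Ω : Type*} [MulAction G Ω] [Finite Ω]

theorem perm_eq_fpc (h : ∀ a b : Ω, ∃ g : G, g • a = b) (a : Ω) :
    (fun g : G => (Nat.card (fixedBy Ω g) : ℂ)) = fixedPointCharacter (stabilizer G a) := by
  have : IsPretransitive G Ω := ⟨h⟩
  ext g
  rw [fixedPointCharacter]
  congr 1
  let e : G ⧸ stabilizer G a ≃ Ω := Equiv.ofBijective (ofQuotientStabilizer G a)
    ⟨injective_ofQuotientStabilizer G a, fun b => by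
      obtain ⟨g, rfl⟩ := h a b
      exact ⟨g, rfl⟩⟩
  have he : ∀ x, e (g • x) = g • e x := fun x => ofQuotientStabilizer_smul G a g x
  refine (Nat.card_congr (e.subtypeEquiv fun x => ?_)).symm
  rw [mem_fixedBy, mem_fixedBy, ← he, e.injective.eq_iff]

theorem isIrr_perm [Nontrivial Ω] (h : Two G Ω) :
    IsIrrCharacter G ((fun g : G => (Nat.card (fixedBy Ω g) : ℂ)) - 1) := by
  obtain ⟨a, b, hab⟩ := exists_pair_ne Ω
  have h1 : classInner (fun g : G => (Nat.card (fixedBy Ω g) : ℂ)) 1 = 1 := by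
    rw [perm_eq_fpc h.trans a, inner_fpc_one]
  have h2 : Nat.card (orbitRel.Quotient G (Ω × Ω)) = 2 := by
    rw [Nat.card_eq_two_iff]
    refine ⟨Quotient.mk'' (a, a), Quotient.mk'' (a, b), fun e => ?_, ?_⟩
    · obtain ⟨g, hg⟩ := Quotient.exact' e
      simp only [Prod.smul_mk, Prod.mk.injEq] at hg
      exact hab (smul_left_cancel g (hg.1.trans hg.2.symm))
    · rw [Set.eq_univ_iff_forall]
      intro x
      obtain ⟨⟨c, d⟩, rfl⟩ := Quotient.mk''_surjective x
      by_cases e : c = d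
      · obtain ⟨g, hg⟩ := h.trans a c
        exact Or.inl (Quotient.sound' ⟨g, by simp [hg, e]⟩)
      · obtain ⟨g, hg, hg'⟩ := h a b c d hab e
        exact Or.inr (Quotient.sound' ⟨g, by simp [hg, hg']⟩)
  have hc := isChar_perm (G := G) Ω
  refine isIrr_of_inner_self (isChar_sub_irr hc isIrr_one (by rw [h1]; simp)) ?_
  rw [Char.inner_sub_left, Char.inner_sub_right, Char.inner_sub_right, inner_perm_perm, h2, h1,
    inner_char_comm isChar_one hc, h1, inner_one_one]
  norm_num

theorem inner_fpc_perm {B : Subgroup G} (hB : ¬ ∀ a b : Ω, ∃ g ∈ B, g • a = b) :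
    classInner (fixedPointCharacter B) ((fun g : G => (Nat.card (fixedBy Ω g) : ℂ)) - 1) ≠ 0 := by
  have hc := isChar_perm (G := G) Ω
  rw [Char.inner_sub_right, inner_fpc_one, inner_fixedPointCharacter_left _ (isClass_of_isChar hc),
    inner_char_comm isChar_one (isChar_restrict B hc)]
  have := inner_perm_one (G := B) Ω
  intro e
  have e2 : (Nat.card (orbitRel.Quotient B Ω) : ℂ) = 1 := by
    rw [← this]; exact sub_eq_zero.mp e
  have e3 : Nat.card (orbitRel.Quotient B Ω) = 1 := by exact_mod_cast e2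
  refine hB fun a b => ?_
  obtain ⟨g, hg⟩ := Quotient.exact' ((Nat.card_eq_one_iff_unique.mp e3).1.elim
    (Quotient.mk'' b : orbitRel.Quotient B Ω) (Quotient.mk'' a))
  exact ⟨g, g.2, hg⟩

end perm

end Cfsg.Agent.T2I
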