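/-
Howlett's counting argument: if the Borel subgroup of a doubly transitive group with a root group datum is
intransitive, the maximal unipotent subgroup fixes a point.
-/
import Cfsg.Agent.Lib.T2I.A1

set_option autoImplicit false
set_option linter.unusedSectionVars false

namespace Cfsg.Agent.T2I

open Cfsg Cfsg.Agent.Char Cfsg.Agent.Fix Cfsg.Agent.Chev Cfsg.Agent.T2 MulAction Cfsg.Agent.Chev.PreRGD
open scoped Classical ComplexConjugate

variable {ι I : Type*} [Fintype I] [DecidableEq I] {R : RSys ι I} {G : Type*} [Group G]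
  [Fintype ι] [DecidableEq ι] [Fintype G] {P : PreRGD R G}

variable (P) in
/-- alternating sum of parabolic permutation characters -/
noncomputable def alt (J : Finset I) : G → ℂ := ∑ K ∈ J.powerset, ((-1 : ℂ) ^ K.card) • fixedPointCharacter (P.PJ K)

variable (P) in
/-- the Steinberg character of a Levi factor -/
noncomputable def stJ (J : Finset I) : P.PJ J → ℂ := fun c => avg (P.UJ J) P.St c

variable (P) in
/-- support of a linear character -/
noncomputable def supp (l : P.U →* ℂˣ) : Finset I :=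
  Finset.univ.filter fun i => ¬ ∀ x : P.U, (x : G) ∈ P.X (R.simple i) → l x = 1

theorem Hom.eq_one (h : Hom P) (l : P.U →* ℂˣ) {S : Set ι} (hS : ∀ r ∈ S, R.IsPos r)
    (hS' : ∀ i ∈ supp P l, R.simple i ∉ S) (u : P.U) (hu : (u : G) ∈ P.US S) : l u = 1 := by
  obtain ⟨u, hu'⟩ := u
  suffices ∃ h : u ∈ P.U, l ⟨u, h⟩ = 1 from this.2
  refine USub_induction (C := fun u => ∃ h : u ∈ P.U, l ⟨u, h⟩ = 1) hu (fun r hr x hx => ?_) ⟨one_mem _, map_one l⟩ ?_
  · refine ⟨P.X_le_U (hS r hr) hx, ?_⟩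
    by_cases e : ∃ i, r = R.simple i
    · obtain ⟨i, rfl⟩ := e
      have : i ∉ supp P l := fun hi => hS' i hi hr
      simp only [supp, Finset.mem_filter, Finset.mem_univ, true_and, not_not] at this
      exact this _ hx
    · push Not at e
      exact h l r (hS r hr) e _ hx
  · rintro x y - - ⟨hx, e1⟩ ⟨hy, e2⟩
    exact ⟨mul_mem hx hy, by
      rw [show (⟨x * y, mul_mem hx hy⟩ : P.U) = ⟨x, hx⟩ * ⟨y, hy⟩ from rfl, map_mul, e1, e2, one_mul]⟩

variable (hP : P.Nondeg) (hfull : P.full = ⊤)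
include hP hfull

theorem stJ_eq (J : Finset I) :
    stJ P J = ∑ K ∈ J.powerset, ((-1 : ℂ) ^ K.card) • fun c : P.PJ J => fix (P.PJ J) (P.PJ K) c := by
  ext c; rw [stJ, hP.avg_St hfull J c.2]; simp

theorem ind_stJ (J : Finset I) : indFun (P.PJ J) (stJ P J) = alt P J := by
  rw [stJ_eq hP hfull, indFun_sum]
  refine Finset.sum_congr rfl fun K hK => ?_
  rw [indFun_smul, indFun_fix (P.PJ_mono (Finset.mem_powerset.mp hK))]

theorem St_U : (fun c : P.U => P.St c) = regChar P.U := by
  ext c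
  by_cases e : c = 1
  · rw [e, regChar_one]; exact hP.St_one hfull
  · rw [regChar_of_ne e, hP.St_of_mem_B hfull (P.U_le_B c.2)]
    refine fix_eq_zero fun x hx h => e (Subtype.ext ?_)
    have := hP.eq_one_of_mem_U_H (by simpa using B_conj_U (inv_mem hx) c.2) h
    have e2 : (c : G) = x * (x⁻¹ * c * x) * x⁻¹ := by group
    rw [e2, this]; simp

theorem inner_PJ_St (K : Finset I) : classInner (fixedPointCharacter (P.PJ K)) P.St = if K = ∅ then 1 else 0 := by
  rw [← hc_one _ (P.UJ K), inner_hc (P.UJ_le_PJ K) isClass_one isClass_St]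
  have : hc (P.PJ K) (P.UJ K) P.St = alt P K := ind_stJ hP hfull K
  rw [this, alt, ← conj_inner, inner_sum_left]
  simp only [Char.inner_smul_left, inner_fpc_one, mul_one]
  have h2 := congrArg (Int.cast : ℤ → ℂ) (Finset.sum_powerset_neg_one_pow_card (x := K))
  push_cast at h2
  rw [h2]; split_ifs <;> simp

omit hP hfull in
theorem stJ_mul (J : Finset I) (u c : P.PJ J) (hu : (u : G) ∈ P.UJ J) : stJ P J (u * c) = stJ P J c :=
  avg_mul_left _ hu _

theorem inner_lin_stJ (J : Finset I) (l : P.U →* ℂˣ) (hl : ∀ u : P.U, (u : G) ∈ P.UJ J → l u = 1) :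
    classInner (fun c : P.U => (l c : ℂ)) (fun c : P.U => avg (P.UJ J) P.St c) = 1 := by
  rw [inner_avg (P.UJ_le_U J) (fun u c hu => by simp [hl u hu]), St_U hP hfull, inner_regChar_right]
  simp

theorem isGen_stJ (J : Finset I) : IsGeneralizedCharacter (P.PJ J) (stJ P J) := by
  rw [stJ_eq hP hfull]
  refine isGen_sum _ fun K hK => ?_
  have e : (fun c : P.PJ J => fix (P.PJ J) (P.PJ K) c) = fixedPointCharacter ((P.PJ K).subgroupOf (P.PJ J)) := by
    ext c; exact fix_coe (P.PJ_mono (Finset.mem_powerset.mp hK)) c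
  have := isGen_intCast_smul (isGen_of_isChar (isChar_fixedPointCharacter ((P.PJ K).subgroupOf (P.PJ J))))
    ((-1) ^ K.card)
  rw [e]
  rwa [Int.cast_pow, Int.cast_neg, Int.cast_one] at this

theorem inner_stJ (J : Finset I) : classInner (stJ P J) (stJ P J) = 1 := by
  have h := inner_avg (C := P.PJ J) (P.UJ_le_PJ J) (stJ_mul J) P.St
  rw [← inner_indFun_left _ _ isClass_St, ind_stJ hP hfull, alt, inner_sum_left] at h
  simp only [Char.inner_smul_left, inner_PJ_St hP hfull] at h
  rw [Finset.sum_eq_single ∅ (by simp +contextual) (by simp)] at h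
  exact h.trans (by simp)

theorem St_of_ne {u : G} (hu : u ∈ P.U) (h1 : u ≠ 1) : P.St u = 0 :=
  (congrFun (St_U hP hfull) ⟨u, hu⟩).trans (regChar_of_ne fun e => h1 (congrArg Subtype.val e))

theorem stJ_one (J : Finset I) : stJ P J 1 = (Nat.card (P.UJ J) : ℂ)⁻¹ * Nat.card P.U := by
  rw [stJ, avg, Finset.sum_eq_single 1]
  · simp [hP.St_one hfull]
  · intro b _ hb
    split_ifs with h
    · rw [OneMemClass.coe_one, mul_one]; exact St_of_ne hP hfull (P.UJ_le_U J h) hb
    · rfl
  · simp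

theorem isIrr_stJ (J : Finset I) : IsIrrCharacter (P.PJ J) (stJ P J) := by
  refine isIrr_of_isGen (isGen_stJ hP hfull J) (inner_stJ hP hfull J) ?_
  rw [stJ_one hP hfull, ← div_eq_inv_mul, ← Complex.ofReal_natCast, ← Complex.ofReal_natCast, ← Complex.ofReal_div,
    Complex.ofReal_re]
  positivity

theorem isChar_D (J : Finset I) (l : P.U →* ℂˣ) (hl : ∀ u : P.U, (u : G) ∈ P.UJ J → l u = 1) :
    IsCharacter G (indFun P.U (fun c => (l c : ℂ)) - alt P J) := by
  rw [← ind_stJ hP hfull, ← indFun_indFun P.U (P.PJ J) (P.U_le_PJ J), ← indFun_sub]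
  let e := Subgroup.subgroupOfEquivOfLe (P.U_le_PJ J)
  refine isChar_indFun _ (isChar_sub_irr (isChar_indFun _ (isChar_of_irr (isIrr_unitsHom (l.comp e.toMonoidHom))))
    (isIrr_stJ hP hfull J) ?_)
  rw [inner_indFun_left _ _ (isClass_of_irr (isIrr_stJ hP hfull J))]
  have := (inner_comp_equiv e _ _).trans (inner_lin_stJ hP hfull J l hl)
  exact fun h => one_ne_zero (this.symm.trans h)

theorem inner_PJ_B (K : Finset I) : classInner (fixedPointCharacter (P.PJ K)) (fixedPointCharacter P.B) =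
    ∑ d ∈ Finset.univ.filter (· ∈ R.W), if ∀ k ∈ K, R.IsPos (d (R.simple k)) then 1 else 0 := by
  have e : (fun c : P.B => fixedPointCharacter (P.PJ K) c) =
      ∑ d ∈ (Finset.univ.filter (· ∈ R.W)).filter (fun d => ∀ k ∈ K, R.IsPos (d (R.simple k))),
        fun c : P.B => fix P.B (P.B ⊓ cj (P.nW d) (P.PJ K)) c := by
    ext c
    rw [← fix_top, Finset.sum_apply]
    refine mackey _ _ _ _ (fun x => ?_) (fun d hd d' hd' c hc a ha e => ?_) c.2
    · obtain ⟨d, hd, h1, -, h3⟩ := exists_dcoset (P := P) ∅ K (g := x) (by rw [hfull]; trivial)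
      rw [PJ_empty] at h3
      exact ⟨d, by simpa using ⟨hd, h1⟩, h3⟩
    · simp only [Finset.mem_filter, Finset.mem_univ, true_and] at hd hd'
      exact (hP.dcoset_unique (J := ∅) hd.1 hd'.1 hd.2 hd'.2 (by simp) (by simp) (by rwa [PJ_empty]) ha e).1
  rw [inner_char_comm (isChar_fixedPointCharacter _) (isChar_fixedPointCharacter _),
    inner_fixedPointCharacter_left _ (isClass_of_isChar (isChar_fixedPointCharacter _)), e, inner_sum_right,
    Finset.sum_filter]
  refine Finset.sum_congr rfl fun d _ => ?_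
  rw [inner_one_fix inf_le_left]

theorem inner_lin_B (hH : Hom P) (l : P.U →* ℂˣ) :
    classInner (indFun P.U (fun c => (l c : ℂ))) (fixedPointCharacter P.B) =
      ∑ d ∈ Finset.univ.filter (· ∈ R.W), if ∀ k ∈ supp P l, ¬ R.IsPos (d (R.simple k)) then 1 else 0 := by
  have e : (fun c : P.U => fixedPointCharacter P.B c) =
      ∑ d ∈ Finset.univ.filter (· ∈ R.W), fun c : P.U => fix P.U (P.U ⊓ cj (P.nW d)⁻¹ P.B) c := by
    ext c
    rw [← fix_top, Finset.sum_apply]
    refine mackey _ (fun d => (P.nW d)⁻¹) _ _ (fun x => ?_) (fun d hd d' hd' c hc a ha e => ?_) c.2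
    · obtain ⟨d, hd, b, hb, b', hb', e⟩ := (P.mem_full_iff (g := x⁻¹)).mp (by rw [hfull]; trivial)
      obtain ⟨u, hu, h, hh, e2⟩ := P.mem_B_iff.mp (inv_mem hb')
      refine ⟨d, by simpa using hd, u, hu, _, mul_mem (P.H_le_B (P.nW_conj_H d hh)) (inv_mem hb), ?_⟩
      rw [← inv_inv x, e, ← inv_inv b', e2]; group
    · simp only [Finset.mem_filter, Finset.mem_univ, true_and] at hd hd'
      refine hP.cell_unique hd hd' (P.nW_mem_cell d) ⟨a⁻¹, inv_mem ha, c, P.U_le_B hc, ?_⟩
      have : c = (P.nW d')⁻¹ * a * P.nW d := by rw [e]; group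
      rw [this]; group
  rw [inner_indFun_left _ _ (isClass_of_isChar (isChar_fixedPointCharacter _)), e, inner_sum_right]
  refine Finset.sum_congr rfl fun d hd => ?_
  have hd : d ∈ R.W := by simpa using hd
  rw [inner_lin_fix inf_le_left]
  refine if_congr ⟨fun h k hk hk' => ?_, fun h c hc => ?_⟩ rfl rfl
  · simp only [supp, Finset.mem_filter, Finset.mem_univ, true_and] at hk
    refine hk fun x hx => h x ⟨x.2, mem_cj.mpr ?_⟩
    rw [inv_inv]
    exact P.U_le_B (P.X_le_U hk' (P.nW_conj_X hd _ hx))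
  · have := mem_cj.mp hc.2
    rw [inv_inv] at this
    exact hH.eq_one l (fun r hr => hr.1) (fun i hi hi' => h i hi hi'.2) c (hP.mem_US_of_conj_mem_B hd c.2 this)

theorem inner_D_B (hH : Hom P) (l : P.U →* ℂˣ) :
    classInner (indFun P.U (fun c => (l c : ℂ)) - alt P (supp P l)) (fixedPointCharacter P.B) = 0 := by
  rw [Char.inner_sub_left, inner_lin_B hP hfull hH, alt, inner_sum_left]
  simp only [Char.inner_smul_left, inner_PJ_B hP hfull, Finset.mul_sum]
  rw [Finset.sum_comm]
  simp only [incl_excl, sub_self]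

theorem howlett_char {p : ℕ} [hp : Fact p.Prime] (hU : IsPGroup p P.U) (hH : Hom P) {K : Subgroup G}
    (h1 : IsIrrCharacter G (fixedPointCharacter K - 1))
    (h2 : classInner (fixedPointCharacter P.B) (fixedPointCharacter K - 1) ≠ 0) : ∃ g, P.U ≤ cj g K := by
  by_contra hc
  push Not at hc
  have := Fintype.ofFinite (P.U →* ℂˣ)
  have : Finite (DoubleCoset.Quotient (P.U : Set G) K) := Quotient.finite _
  have := Fintype.ofFinite (DoubleCoset.Quotient (P.U : Set G) K)
  choose f hf using fun J : Finset I => exists_nat_inner (isChar_fixedPointCharacter (P.PJ J))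
    (isChar_fixedPointCharacter K)
  have key : ∀ l : P.U →* ℂˣ, (∑ t : DoubleCoset.Quotient (P.U : Set G) K,
      if ∀ c : P.U, (c : G) ∈ cj t.out K → l c = 1 then (1 : ℤ) else 0) =
      ∑ J ∈ (supp P l).powerset, (-1) ^ J.card * (f J : ℤ) := fun l => by
    have hD := isChar_D hP hfull (supp P l) l fun u hu => hH.eq_one l (fun r hr => hr.1)
      (fun i hi hi' => hi'.2 (RSys.inSub_simple.mpr hi)) u hu
    have a1 := inner_eq_zero_of hD (isChar_fixedPointCharacter _) h1 (inner_D_B hP hfull hH l) h2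
    have a2 := inner_eq_zero_of hD (isChar_fixedPointCharacter _) isIrr_one (inner_D_B hP hfull hH l)
      (by rw [inner_fpc_one]; simp)
    rw [Char.inner_sub_right, a2, sub_zero, Char.inner_sub_left, sub_eq_zero,
      inner_indFun_left _ _ (isClass_of_isChar (isChar_fixedPointCharacter _)), inner_lin_fpc, alt,
      inner_sum_left] at a1
    simp only [Char.inner_smul_left, hf] at a1
    exact_mod_cast a1
  have key2 : ∀ l : P.U →* ℂˣ, ∑ J ∈ (supp P l).powerset, (-1 : ℤ) ^ J.card * f J =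
      ∑ J : Finset I, (-1) ^ J.card * f J * ∑ M ∈ J.powerset, (-1 : ℤ) ^ M.card *
        if ∀ c : P.U, (∃ k ∈ M, (c : G) ∈ P.X (R.simple k)) → l c = 1 then 1 else 0 := fun l => by
    have : ∀ M : Finset I, (∀ c : P.U, (∃ k ∈ M, (c : G) ∈ P.X (R.simple k)) → l c = 1) ↔
        ∀ k ∈ M, ∀ c : P.U, (c : G) ∈ P.X (R.simple k) → l c = 1 := fun M =>
      ⟨fun h k hk c hc => h c ⟨k, hk, hc⟩, fun h c ⟨k, hk, hc⟩ => h k hk c hc⟩
    simp only [this, incl_excl]
    simp only [mul_ite, mul_one, mul_zero]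
    rw [← Finset.sum_filter]
    refine Finset.sum_congr ?_ fun _ _ => rfl
    ext J
    simp [supp, Finset.subset_iff]
  have e := Finset.sum_congr (rfl : (Finset.univ : Finset (P.U →* ℂˣ)) = _) fun l _ => (key l).trans (key2 l)
  rw [Finset.sum_comm, Finset.sum_comm (s := (Finset.univ : Finset (P.U →* ℂˣ)))] at e
  simp only [← Finset.mul_sum] at e
  simp only [Finset.sum_comm (s := (Finset.univ : Finset (P.U →* ℂˣ))), ← Finset.mul_sum, Finset.sum_boole] at e
  have e2 := congrArg (Int.cast : ℤ → ZMod p) e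
  push_cast at e2
  have b1 : ∀ t : DoubleCoset.Quotient (P.U : Set G) K, (((Finset.univ.filter fun l : P.U →* ℂˣ =>
      ∀ c : P.U, (c : G) ∈ cj t.out K → l c = 1).card : ℕ) : ZMod p) = 0 := fun t => by
    rw [ZMod.natCast_eq_zero_iff]
    refine dvd_card_lin hU _ (exists_lin_of_ne_top hU (A := (cj t.out K).subgroupOf P.U) fun h => hc t.out ?_)
    rwa [Subgroup.subgroupOf_eq_top] at h
  have b2 : ∀ M : Finset I, (((Finset.univ.filter fun l : P.U →* ℂˣ =>
      ∀ c : P.U, (∃ k ∈ M, (c : G) ∈ P.X (R.simple k)) → l c = 1).card : ℕ) : ZMod p) =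
      if M = Finset.univ then 1 else 0 := fun M => by
    split_ifs with hM
    · rw [Finset.card_eq_one.mpr ⟨1, ?_⟩, Nat.cast_one]
      ext l
      simp only [hM, Finset.mem_filter, Finset.mem_univ, true_and, Finset.mem_singleton]
      refine ⟨fun h => MonoidHom.ext fun u => hH.eq_one l (fun r hr => hr) (fun i hi => ?_) u u.2, ?_⟩
      · simp only [supp, Finset.mem_filter, Finset.mem_univ, true_and] at hi
        exact (hi fun x hx => h x ⟨i, hx⟩).elim
      · rintro rfl; simp
    · rw [ZMod.natCast_eq_zero_iff]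
      obtain ⟨k, hk⟩ : ∃ k, k ∉ M := by
        by_contra hc
        push Not at hc
        exact hM (Finset.eq_univ_of_forall hc)
      obtain ⟨l, hl, hl'⟩ := exists_lin_of_ne_top hU (A := (P.UJ {k}).subgroupOf P.U) fun h => by
        rw [Subgroup.subgroupOf_eq_top] at h
        obtain ⟨x, hx, hx1⟩ := hP.exists_ne_one (R.simple k)
        exact hP.X_not_mem_UJ hx hx1 (h (P.X_le_U (R.isPos_simple k) hx))
      refine dvd_card_lin hU _ ⟨l, hl, fun a ⟨j, hj, ha⟩ => hl' a ?_⟩
      have : R.IsPos (R.simple j) ∧ ¬ R.InSub {k} (R.simple j) := ⟨R.isPos_simple j, by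
        rw [RSys.inSub_simple]
        rintro rfl; exact hk hj⟩
      exact mem_USub (S := {r | R.IsPos r ∧ ¬ R.InSub {k} r}) this ha
  have b3 : f Finset.univ = 1 := by
    have := hf Finset.univ
    rw [Finset.coe_univ, show P.PJ Set.univ = ⊤ from hfull, inner_char_comm (isChar_fixedPointCharacter _)
      (isChar_fixedPointCharacter _), ← fix_top ⊤, show fix (⊤ : Subgroup G) ⊤ = 1 from by
        ext g; simp [fix, natCard_ne_zero], inner_fpc_one] at this
    exact_mod_cast this.symm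
  simp only [b1, b2, Finset.sum_const_zero, mul_ite, mul_one, mul_zero, Finset.sum_ite_eq', Finset.mem_powerset,
    Finset.univ_subset_iff, Finset.mem_univ, if_true, b3, Nat.cast_one, ← pow_add, ← two_mul, pow_mul] at e2
  simp at e2

theorem howlett {p : ℕ} [hp : Fact p.Prime] (hU : IsPGroup p P.U) (hH : Hom P) {Ω : Type*} [MulAction G Ω]
    [Finite Ω] [Nontrivial Ω] (h : Two G Ω) (hB : ¬ ∀ a b : Ω, ∃ g ∈ P.B, g • a = b) :
    ∃ a : Ω, ∀ u ∈ P.U, u • a = a := by
  obtain ⟨a, -⟩ := exists_pair_ne Ω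
  have h1 := isIrr_perm h
  have h2 := inner_fpc_perm hB
  rw [perm_eq_fpc h.trans a] at h1 h2
  obtain ⟨g, hg⟩ := howlett_char hP hfull hU hH h1 h2
  refine ⟨g • a, fun u hu => ?_⟩
  have := mem_cj.mp (hg hu)
  rw [mem_stabilizer_iff, mul_smul, mul_smul, inv_smul_eq_iff] at this
  exact this

end Cfsg.Agent.T2I
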