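/-
A doubly transitive group with a root group datum with two roots of full support has a transitive Borel subgroup.
-/
import Cfsg.Agent.Lib.T2I.A2
import Cfsg.Agent.Lib.T2X.A

set_option autoImplicit false
set_option linter.unusedSectionVars false

namespace Cfsg.Agent.T2I

open Cfsg.Agent.Chev Cfsg.Agent.T2 MulAction Cfsg.Agent.Chev.PreRGD Cfsg.Agent.Chev.RSys

variable {ι I : Type*} [Fintype I] [DecidableEq I] {R : RSys ι I} {G : Type*} [Group G]
  [Fintype ι] [DecidableEq ι] {P : PreRGD R G}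

variable (R) in
/-- two roots of full support -/
def FS : Prop := ∃ r s, r ≠ s ∧ ∀ i, 0 < R.rc r i ∧ 0 < R.rc s i

theorem FS.w0_ne (h : FS R) {J : Set I} {j : I} (hj : j ∉ J) {a b : Equiv.Perm ι} (ha : a ∈ R.WJ J)
    (hb : b ∈ R.WJ J) : R.w0 ≠ a * R.sref j * b := fun e => by
  have key : ∀ r, (∀ i, 0 < R.rc r i) → b r = R.simple j := fun r hr => by
    by_contra hne
    have h1 : R.IsPos (b r) := isPos_of_coord (i := j) (by rw [rc_apply_of_mem_WJ hb r hj]; exact hr j)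
    have h2 := h1.sref hne
    have h3 : R.w0 r = a (R.sref j (b r)) := by rw [e]; rfl
    have h4 : ¬ R.IsPos (R.w0 r) := fun h => isPos_w0_iff.mp h (isPos_of_coord (hr j))
    have h5 : R.InSub J (R.w0 r) := by
      by_contra h5
      rw [h3, inSub_apply_iff ha] at h5
      rw [h3, isPos_apply_iff_of_not_inSub ha h5] at h4
      exact h4 h2
    rw [← inSub_w0, w0_w0] at h5
    have := h5 (R.opp j) (by simpa using hj)
    have := hr (R.opp j)
    omega
  obtain ⟨r, s, hrs, h⟩ := h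
  exact hrs (b.injective ((key r fun i => (h i).1).trans (key s fun i => (h i).2).symm))

variable (hP : P.Nondeg) (hfull : P.full = ⊤) {Ω : Type*} [MulAction G Ω]
include hP hfull

theorem not_fix_B [Nontrivial Ω] (hF : FS R) (h : Two G Ω) {a : Ω} (ha : ∀ b ∈ P.B, b • a = a) : False := by
  have hK := hP.eq_PJ_of_B_le (K := stabilizer G a) ha (by rw [hfull]; exact le_top)
  set J := {i | P.n i ∈ stabilizer G a}
  obtain ⟨j, hj⟩ : ∃ j, j ∉ J := by
    by_contra hc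
    push Not at hc
    rw [Set.eq_univ_of_forall hc, show P.PJ Set.univ = ⊤ from hfull] at hK
    obtain ⟨b, hb⟩ := exists_ne a
    obtain ⟨g, rfl⟩ := h.trans a b
    exact hb (show g ∈ stabilizer G a by rw [hK]; trivial)
  obtain ⟨w, hw, v, hv, d, hd, e, h1, h2⟩ := exists_min_dcoset J J (w0_mem (R := R))
  have hd1 : P.nW d • a ≠ a := fun hc => by
    have h3 : d ∈ R.WJ J := (hP.nW_mem_PJ_iff hd).mp (hK ▸ hc)
    have h4 : R.w0 ∈ R.WJ J := by rw [e]; exact mul_mem (mul_mem hw h3) hv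
    have h5 := rc_apply_of_mem_WJ h4 (R.simple j) hj
    rw [R.rc_simple, Pi.single_eq_same] at h5
    exact isPos_w0_iff.mp (isPos_of_coord (i := j) (by omega)) (R.isPos_simple j)
  have hs : P.nW (R.sref j) • a ≠ a := fun hc =>
    hj (sref_mem_WJ_iff.mp ((hP.nW_mem_PJ_iff (R.sref_mem_W j)).mp (hK ▸ hc)))
  obtain ⟨g, g1, g2⟩ := h a _ a _ hs.symm hd1.symm
  have hpos : ∀ k ∈ J, R.IsPos (R.sref j (R.simple k)) := fun k hk =>
    (R.isPos_simple k).sref fun e => hj (R.simple_inj e ▸ hk)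
  have := (hP.dcoset_unique (J := J) (K := J) (R.sref_mem_W j) hd hpos h1 (by simpa using hpos) h2 (p := g)
    (q := (P.nW d)⁻¹ * g * P.nW (R.sref j)) (hK ▸ g1) (by
      rw [← hK, mem_stabilizer_iff, mul_smul, mul_smul, g2, inv_smul_smul]) (by group)).1
  exact hF.w0_ne hj hw hv (by rw [this]; exact e)

omit hP in
theorem fix_B [Finite G] [Finite Ω] (h : Two G Ω) (hB : ¬ ∀ a b : Ω, ∃ g ∈ P.B, g • a = b) {a : Ω}
    (ha : ∀ u ∈ P.U, u • a = a) {b : G} (hb : b ∈ P.B) : b • a = a := by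
  have key : ∀ w, ∀ g ∈ P.cell w, w ∈ R.W → ∃ u ∈ P.U, ∃ c ∈ P.B, g = u * P.nW w * c := by
    rintro w _ ⟨b₁, h1, b₂, h2, rfl⟩ hw
    obtain ⟨u, hu, k, hk, rfl⟩ := P.mem_B_iff.mp h1
    exact ⟨u, hu, _, mul_mem (P.H_le_B (P.nW_inv_conj_H w hk)) h2, by group⟩
  obtain ⟨u, hu, e⟩ := h.same_orbit_of hB (A := P.U) (y := b) (fun g => by
    obtain ⟨w, hw, hg⟩ := (P.mem_full_iff (g := g)).mp (by rw [hfull]; trivial)
    obtain ⟨u₁, h1, c₁, h2, e1⟩ := key w _ (mul_mem_cell (inv_mem hb) hg) hw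
    obtain ⟨u₂, h3, c₂, h4, e2⟩ := key w _ hg hw
    exact ⟨u₁ * u₂⁻¹, mul_mem h1 (inv_mem h3), c₂⁻¹ * c₁, mul_mem (inv_mem h4) h2, by rw [e1, e2]; group⟩) a
  rw [← e, ha u hu]

theorem not_fix_U [Finite G] [Finite Ω] [Nontrivial Ω] (hF : FS R) (h : Two G Ω)
    (hB : ¬ ∀ a b : Ω, ∃ g ∈ P.B, g • a = b) {a : Ω} (ha : ∀ u ∈ P.U, u • a = a) : False :=
  not_fix_B hP hfull hF h fun _ hb => fix_B hfull h hB ha hb

theorem trans_B [Finite G] [Finite Ω] [Nontrivial Ω] {p : ℕ} [Fact p.Prime] (hU : IsPGroup p P.U) (hH : Hom P)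
    (hF : FS R) (h : Two G Ω) : ∀ a b : Ω, ∃ g ∈ P.B, g • a = b := by
  by_contra hB
  have := Fintype.ofFinite G
  obtain ⟨a, ha⟩ := howlett hP hfull hU hH h hB
  exact not_fix_U hP hfull hF h hB ha

/-- numerical version: the degree is prime to `p` or a power of `p` -/
theorem trans_B' [Finite G] [Finite Ω] [Nontrivial Ω] {p : ℕ} [hp : Fact p.Prime] (hU : IsPGroup p P.U)
    (hU' : ¬ p ∣ P.U.index) (hF : FS R) (h : Two G Ω) (hn : ¬ p ∣ Nat.card Ω ∨ ∃ k, Nat.card Ω = p ^ k) :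
    ∀ a b : Ω, ∃ g ∈ P.B, g • a = b := by
  by_contra hB
  rcases hn with hn | ⟨k, hn⟩
  · obtain ⟨a, ha⟩ := hU.nonempty_fixed_point_of_prime_not_dvd_card Ω hn
    exact not_fix_U hP hfull hF h hB fun u hu => ha ⟨u, hu⟩
  · have : T2X.Trs Ω P.U := T2X.trs_of_pow (B := ⊤) hp.out (fun a b => by
      obtain ⟨g, hg⟩ := h.trans a b
      exact ⟨g, trivial, hg⟩) le_top (by rw [Subgroup.card_top, Subgroup.card_mul_index]) hU' hn
    exact hB (this.mono P.U_le_B)

end Cfsg.Agent.T2I
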