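/-
Doubly transitive actions of `F₄(2)`: every faithful rational representation has dimension at least `448`
(weights of an elementary abelian subgroup of order `2¹¹`), hence the degree is odd or a power of two.
-/
import Cfsg.Agent.Lib.T2.Des
import Cfsg.Agent.Lib.Chev.Char2
import Cfsg.Agent.Lib.Chev.Poincare

set_option autoImplicit false

namespace Cfsg.Agent.T2I
open Cfsg.Lie Cfsg.Agent.Chev Cfsg.Agent.ChevM

namespace F42

section abstract
variable {G V : Type*} [Group G] [AddCommGroup V] [Module ℚ V] (ρ : G →* Module.End ℚ V) (x : ℕ → G)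

/-- The sign of a Boolean. -/
def sg (b : Bool) : ℚ := bif b then -1 else 1

theorem sg_xor (a b : Bool) : sg (xor a b) = sg a * sg b := by cases a <;> cases b <;> simp [sg]

/-- There is a vector of weight `μ` for the elements `x r`, `r ∈ S`. -/
def W (S : List ℕ) (μ : ℕ → Bool) : Prop := ∃ v : V, v ≠ 0 ∧ ∀ r ∈ S, ρ (x r) v = sg (μ r) • v

/-- The sum of the values of `μ` on a list. -/
def xr (μ : ℕ → Bool) (c : List ℕ) : Bool := c.foldr (fun a b => xor (μ a) b) false

/-- The commutation relation of `x r` and `x s`. -/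
def R (r s : ℕ) (c : List ℕ) : Prop := x r * x s = x s * ((c.map x).prod * x r)

variable {ρ x} {S : List ℕ} {μ ν : ℕ → Bool}

theorem W.congr (h : W ρ x S μ) (e : ∀ r ∈ S, ν r = μ r) : W ρ x S ν := by
  obtain ⟨v, h0, h⟩ := h
  exact ⟨v, h0, fun r hr => by rw [e r hr, h r hr]⟩

theorem W.conj (h : W ρ x S μ) (s : ℕ)
    (e : ∀ r ∈ S, ∃ c, R x r s c ∧ (∀ a ∈ c, a ∈ S) ∧ ν r = xor (xr μ c) (μ r)) : W ρ x S ν := by
  obtain ⟨v, h0, h⟩ := h
  have hc : ∀ c : List ℕ, (∀ a ∈ c, a ∈ S) → ρ (c.map x).prod v = sg (xr μ c) • v := fun c hc => by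
    induction c with
    | nil => simp [xr, sg]
    | cons a c ih =>
      rw [List.map_cons, List.prod_cons, map_mul, Module.End.mul_apply, ih fun b hb => hc b (by simp [hb]), map_smul,
        h a (hc a (by simp)), smul_smul, mul_comm, ← sg_xor]
      rfl
  refine ⟨ρ (x s) v, fun e0 => h0 ?_, fun r hr => ?_⟩
  · have : ρ ((x s)⁻¹ * x s) v = 0 := by rw [map_mul, Module.End.mul_apply, e0, map_zero]
    simpa using this
  · obtain ⟨c, h1, h2, h3⟩ := e r hr
    rw [← Module.End.mul_apply, ← map_mul, h1, map_mul, map_mul, Module.End.mul_apply, Module.End.mul_apply, h r hr,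
      map_smul, hc c h2, smul_smul, map_smul, h3, sg_xor, mul_comm]

theorem W.ext1 (h : W ρ x S μ) {s : ℕ} (hs : s ∉ S) (h2 : x s * x s = 1) (hc : ∀ r ∈ S, R x r s []) :
    ∃ ν, (∀ r ∈ S, ν r = μ r) ∧ W ρ x (s :: S) ν := by
  obtain ⟨v, h0, h⟩ := h
  have hu : ∀ b, ∀ r ∈ S, Function.update μ s b r = μ r := fun b r hr =>
    Function.update_of_ne (ne_of_mem_of_not_mem hr hs) _ _
  by_cases e : v + ρ (x s) v = 0
  · refine ⟨Function.update μ s true, hu _, v, h0, fun r hr => ?_⟩
    rcases List.mem_cons.1 hr with rfl | hr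
    · rw [Function.update_self, eq_neg_of_add_eq_zero_right e]; simp [sg]
    · rw [hu _ r hr, h r hr]
  · refine ⟨Function.update μ s false, hu _, _, e, fun r hr => ?_⟩
    rcases List.mem_cons.1 hr with rfl | hr
    · rw [Function.update_self, map_add, ← Module.End.mul_apply, ← map_mul, h2, add_comm]; simp [sg]
    · have := hc r hr
      simp only [R, List.map_nil, List.prod_nil, one_mul] at this
      rw [hu _ r hr, map_add, ← Module.End.mul_apply, ← map_mul, this, map_mul, Module.End.mul_apply, h r hr, map_smul,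
        smul_add]

theorem W.ext (h : W ρ x S μ) (S' : List ℕ) (hn : (S' ++ S).Nodup) (h2 : ∀ s ∈ S', x s * x s = 1)
    (hc : ∀ r ∈ S' ++ S, ∀ s ∈ S' ++ S, R x r s []) : ∃ ν, (∀ r ∈ S, ν r = μ r) ∧ W ρ x (S' ++ S) ν := by
  induction S' with
  | nil => exact ⟨μ, fun _ _ => rfl, h⟩
  | cons s S' ih =>
    rw [List.cons_append, List.nodup_cons] at hn
    obtain ⟨ν, e, h1⟩ := ih hn.2 (fun a ha => h2 a (by simp [ha])) fun a ha b hb =>
      hc a (List.mem_cons_of_mem _ ha) b (List.mem_cons_of_mem _ hb)
    obtain ⟨ν', e', h3⟩ := h1.ext1 hn.1 (h2 s (by simp)) fun r hr => hc r (List.mem_cons_of_mem _ hr) s (by simp)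
    exact ⟨ν', fun r hr => (e' r (by simp [hr])).trans (e r hr), h3⟩

theorem W.set (h : W ρ x S μ) {z y y' : ℕ} (hz : z ∈ S) (hμ : μ z = true)
    (hc : ∀ r ∈ S, R x r y' (if r = y then [z] else [])) (b : Bool) : W ρ x S (Function.update μ y b) := by
  by_cases e : μ y = b
  · rwa [← e, Function.update_eq_self]
  · refine h.conj y' fun r hr => ⟨_, hc r hr, fun a ha => ?_, ?_⟩
    · split_ifs at ha
      · rwa [List.mem_singleton.1 ha]
      · simp at ha
    · split_ifs with e'
      · subst e'
        revert e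
        simp only [Function.update_self, xr, List.foldr, hμ]
        cases μ r <;> cases b <;> simp
      · simp [Function.update_of_ne e', xr]

/-- The eigenvalue attached to a weight. -/
def ev (S : List ℕ) (μ : ℕ → Bool) : ℕ := S.foldr (fun r n => (bif μ r then 2 ^ r else 0) + n) 0

theorem length_le [Module.Finite ℚ V] {Λ : List ℕ} (h : ∀ m ∈ Λ, W ρ x S m.testBit)
    (hn : (Λ.map fun m => ev S m.testBit).Nodup) : Λ.length ≤ Module.finrank ℚ V := by
  let T : List ℕ → Module.End ℚ V := fun S => (S.map fun r => ((2 : ℚ) ^ r / 2) • (1 - ρ (x r))).sum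
  have hT : ∀ (S : List ℕ) (μ : ℕ → Bool) (v : V), (∀ r ∈ S, ρ (x r) v = sg (μ r) • v) → T S v = (ev S μ : ℚ) • v := by
    intro S μ v hv
    induction S with
    | nil => simp [T, ev]
    | cons r S ih =>
      have h1 := ih fun a ha => hv a (by simp [ha])
      have h2 : ev (r :: S) μ = (bif μ r then 2 ^ r else 0) + ev S μ := rfl
      simp only [T, List.map_cons, List.sum_cons, LinearMap.add_apply, LinearMap.smul_apply, LinearMap.sub_apply,
        Module.End.one_apply] at h1 ⊢
      rw [h1, hv r (by simp), h2]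
      cases μ r
      · simp [sg]
      · simp only [sg, cond_true]
        push_cast
        module
  choose v h0 hv using fun i : Fin Λ.length => h Λ[i] (List.getElem_mem _)
  have := (Module.End.eigenvectors_linearIndependent' (T S) (fun i : Fin Λ.length => (ev S Λ[i].testBit : ℚ))
    (fun i j e => ?_) v fun i => ⟨Module.End.mem_eigenspace_iff.2 (hT S _ _ (hv i)), h0 i⟩).fintype_card_le_finrank
  · simpa using this
  · have e' : ev S Λ[i].testBit = ev S Λ[j].testBit := Nat.cast_injective (R := ℚ) e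
    have := (List.Nodup.getElem_inj_iff hn (i := i) (j := j) (hi := by simp) (hj := by simp)).1 (by simpa using e')
    exact Fin.ext this

/-- The roots of the centre of the unipotent radical. -/
def S7 : List ℕ := [44, 40, 39, 38, 36, 29] ++ [47]
/-- Eleven commuting roots. -/
def S11 : List ℕ := [24, 26, 31, 32] ++ S7
/-- Roots generating the Levi factor. -/
def gens : List ℕ := [33, 14, 27, 20, 25, 22]

/-- The table of commutators needed. -/
def tb : ℕ → ℕ → List ℕ
  | 29, 33 => [36] | 36, 14 => [29] | 36, 27 => [38] | 38, 20 => [36] | 38, 25 => [39, 47] | 39, 27 => [40]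
  | 39, 22 => [38, 47] | 40, 33 => [44] | 40, 20 => [39] | 44, 14 => [40] | _, _ => []

/-- One step in an orbit of weights. -/
def stepB (m s m' : ℕ) : Bool :=
  S7.all fun r => (tb r s).all (· ∈ S7) && m'.testBit r == xor (xr m.testBit (tb r s)) (m.testBit r)

/-- A spanning tree of an orbit of weights. -/
def chain : List ℕ → List (ℕ × ℕ × ℕ) → Bool
  | _, [] => true
  | K, e :: L => decide (e.1 ∈ K) && decide (e.2.1 ∈ gens) && stepB e.1 e.2.1 e.2.2 && stepB e.2.2 e.2.1 e.1 &&
      chain (e.2.2 :: K) L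

theorem step (hL : ∀ r ∈ S7, ∀ s ∈ gens, R x r s (tb r s)) {m s m' : ℕ} (hs : s ∈ gens) (h : stepB m s m' = true)
    (hw : W ρ x S7 m.testBit) : W ρ x S7 m'.testBit := by
  simp only [stepB, List.all_eq_true, Bool.and_eq_true, decide_eq_true_eq, beq_iff_eq] at h
  exact hw.conj s fun r hr => ⟨_, hL r hr s hs, (h r hr).1, (h r hr).2⟩

theorem chain_iff (hL : ∀ r ∈ S7, ∀ s ∈ gens, R x r s (tb r s)) {P : Prop} {K : List ℕ} {L : List (ℕ × ℕ × ℕ)}
    (h : chain K L = true) (hK : ∀ m ∈ K, W ρ x S7 m.testBit ↔ P) : ∀ e ∈ L, W ρ x S7 e.2.2.testBit ↔ P := by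
  induction L generalizing K with
  | nil => simp
  | cons e L ih =>
    simp only [chain, Bool.and_eq_true, decide_eq_true_eq] at h
    obtain ⟨⟨⟨⟨h1, h2⟩, h3⟩, h4⟩, h5⟩ := h
    have he : W ρ x S7 e.2.2.testBit ↔ P := Iff.trans ⟨step hL h2 h4, step hL h2 h3⟩ (hK _ h1)
    intro e' he'
    rcases List.mem_cons.1 he' with rfl | he'
    · exact he
    · refine ih h5 (fun m hm => ?_) e' he'
      rcases List.mem_cons.1 hm with rfl | hm
      exacts [he, hK m hm]

/-- The orbit of length 36. -/
def E1 : List (ℕ × ℕ × ℕ) :=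
  [(140737488355328, 33, 140737488355328), (140737488355328, 25, 141012366262272),
   (140737488355328, 22, 141287244169216), (141012366262272, 27, 141081085739008),
   (141287244169216, 20, 142386755796992), (141081085739008, 33, 141081622609920),
   (141081085739008, 20, 140806207832064), (142386755796992, 14, 159978941841408),
   (142386755796992, 27, 141836999983104), (141081622609920, 14, 141012903133184),
   (141081622609920, 20, 140806744702976), (140806207832064, 22, 141355963645952),
   (159978941841408, 33, 158879430213632), (159978941841408, 27, 159429186027520),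
   (141836999983104, 25, 142111877890048), (141012903133184, 25, 140738025226240),
   (140806744702976, 22, 141356500516864), (141355963645952, 20, 142730353180672),
   (158879430213632, 22, 158329674399744), (159429186027520, 25, 159704063934464),
   (140738025226240, 22, 141287781040128), (141356500516864, 20, 142730890051584),
   (142730353180672, 14, 160322539225088), (158329674399744, 25, 158604552306688),
   (141287781040128, 20, 142387292667904), (142730890051584, 14, 160254356619264),
   (142730890051584, 27, 142112414760960), (160322539225088, 33, 159223564468224),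
   (160322539225088, 20, 158948149690368), (158604552306688, 27, 158673271783424),
   (142387292667904, 14, 160048198189056), (142387292667904, 27, 141837536854016),
   (160254356619264, 33, 159154844991488), (160254356619264, 27, 159773320282112),
   (158948149690368, 22, 158398393876480), (160048198189056, 27, 159498442375168)]

/-- The orbit of length 28. -/
def E2 : List (ℕ × ℕ × ℕ) :=
  [(141562122076160, 33, 141562122076160), (141562122076160, 27, 141630841552896),
   (141562122076160, 20, 142661633703936), (141630841552896, 33, 141631378423808),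
   (141630841552896, 20, 142455475273728), (142661633703936, 14, 160253819748352),
   (142661633703936, 27, 142180597366784), (141631378423808, 14, 141562658947072),
   (141631378423808, 20, 142456012144640), (142455475273728, 14, 160047661318144),
   (142455475273728, 27, 141905719459840), (160253819748352, 33, 159154308120576),
   (160253819748352, 27, 159772783411200), (142180597366784, 33, 142181134237696),
   (141562658947072, 20, 142662170574848), (142456012144640, 14, 159979478712320),
   (142456012144640, 27, 141906256330752), (160047661318144, 33, 158948686561280),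
   (160047661318144, 27, 159497905504256), (160047661318144, 20, 159223027597312),
   (159772783411200, 33, 158673808654336), (142181134237696, 14, 159704600805376),
   (142662170574848, 14, 160323076096000), (159979478712320, 33, 158879967084544),
   (159979478712320, 27, 159429722898432), (158948686561280, 22, 158398930747392),
   (158673808654336, 14, 158605089177600), (158879967084544, 22, 158330211270656)]

/-- The sixteen extensions. -/
def D16 : List ℕ := [24, 26, 31, 32].sublists.map fun l => (l.map (2 ^ ·)).sum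

/-- The weights above an orbit. -/
def lam (E : List (ℕ × ℕ × ℕ)) : List ℕ := E.flatMap fun e => D16.map (e.2.2 + ·)

/-- The finite check for an orbit. -/
def Good (m : ℕ) (E : List (ℕ × ℕ × ℕ)) : Prop :=
  chain [m] E = true ∧ (∀ e ∈ E, e.2.2.testBit 47 = true ∧ ∀ d ∈ D16, ∀ r ∈ S7, (e.2.2 + d).testBit r = e.2.2.testBit r) ∧
    ((lam E).map fun m => ev S11 m.testBit).Nodup ∧ 448 ≤ (lam E).length

theorem good1 : Good 140737488355328 E1 := by unfold Good; decide +kernel
theorem good2 : Good 141562122076160 E2 := by unfold Good; decide +kernel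

set_option synthInstance.maxSize 4000 in
theorem cover : ∀ a b c d e f : Bool, ∃ p ∈ E1 ++ E2, p.2.2.testBit 44 = a ∧ p.2.2.testBit 40 = b ∧
    p.2.2.testBit 39 = c ∧ p.2.2.testBit 38 = d ∧ p.2.2.testBit 36 = e ∧ p.2.2.testBit 29 = f ∧
      p.2.2.testBit 47 = true := by decide +kernel

/-- The relations used. -/
structure Rel (x : ℕ → G) : Prop where
  L : ∀ r ∈ S7, ∀ s ∈ gens, R x r s (tb r s)
  sq : ∀ r ∈ S11, x r * x r = 1
  cm : ∀ r ∈ S11, ∀ s ∈ S11, R x r s []
  H : ∀ p ∈ [(24, 46), (26, 45), (31, 43), (32, 42)], ∀ r ∈ S11, R x r p.2 (if r = p.1 then [47] else [])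

theorem all16 (hx : Rel x) (h : W ρ x S7 μ) (hμ : μ 47 = true) (e : ∀ r ∈ S7, ν r = μ r) : W ρ x S11 ν := by
  obtain ⟨μ', e', h1⟩ := h.ext [24, 26, 31, 32] (by decide) (fun s hs => hx.sq s (List.mem_append_left _ hs)) hx.cm
  have hz : 47 ∈ S11 := by decide
  have h47 : μ' 47 = true := (e' 47 (by decide)).trans hμ
  have h2 := W.set (S := S11) h1 hz h47 (hx.H (24, 46) (by simp)) (ν 24)
  have h3 := h2.set hz (by simpa using h47) (hx.H (26, 45) (by simp)) (ν 26)
  have h4 := h3.set hz (by simpa using h47) (hx.H (31, 43) (by simp)) (ν 31)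
  have h5 := h4.set hz (by simpa using h47) (hx.H (32, 42) (by simp)) (ν 32)
  refine h5.congr fun r hr => ?_
  rcases List.mem_append.1 hr with hr | hr
  · simp only [List.mem_cons, List.not_mem_nil, or_false] at hr
    rcases hr with rfl | rfl | rfl | rfl <;> simp
  · have : r ≠ 24 ∧ r ≠ 26 ∧ r ≠ 31 ∧ r ≠ 32 := by revert r; decide
    simp [this, e r hr, e' r hr]

theorem of_good [Module.Finite ℚ V] (hx : Rel x) {m : ℕ} {E : List (ℕ × ℕ × ℕ)} (hg : Good m E) {p : ℕ × ℕ × ℕ}
    (hp : p ∈ E) (h : W ρ x S7 p.2.2.testBit) : 448 ≤ Module.finrank ℚ V := by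
  obtain ⟨h1, h2, h3, h4⟩ := hg
  have h5 := chain_iff (ρ := ρ) hx.L (P := W ρ x S7 m.testBit) h1 (by simp)
  refine h4.trans (length_le (ρ := ρ) (x := x) (fun m' hm => ?_) h3)
  simp only [lam, List.mem_flatMap, List.mem_map] at hm
  obtain ⟨e, he, d, hd, rfl⟩ := hm
  exact all16 hx ((h5 e he).2 ((h5 p hp).1 h)) (h2 e he).1 ((h2 e he).2 d hd)

theorem le_finrank [Module.Finite ℚ V] (hx : Rel x) {v : V} (h0 : v ≠ 0) (hv : ρ (x 47) v = -v) :
    448 ≤ Module.finrank ℚ V := by
  have h : W ρ x [47] fun _ => true := ⟨v, h0, by simp [hv, sg]⟩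
  obtain ⟨μ, e, h1⟩ := h.ext [44, 40, 39, 38, 36, 29] (by decide)
    (fun s hs => hx.sq s (List.mem_append_right _ (List.mem_append_left _ hs)))
    fun r hr s hs => hx.cm r (List.mem_append_right _ hr) s (List.mem_append_right _ hs)
  obtain ⟨p, hp, h2⟩ := cover (μ 44) (μ 40) (μ 39) (μ 38) (μ 36) (μ 29)
  have h3 : W ρ x S7 p.2.2.testBit := h1.congr (by simpa [e] using h2)
  rcases List.mem_append.1 hp with hp | hp
  exacts [of_good hx good1 hp h3, of_good hx good2 hp h3]

end abstract

/-- The table check for one pair of roots. -/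
def ok (r s : ℕ) (c : List ℕ) : Prop :=
  r < 48 ∧ s < 48 ∧ (if s = r then c = [] else r + s ≠ 47 ∧ (otG chevF4 r s).map (·.1) = c)

instance (r s : ℕ) (c : List ℕ) : Decidable (ok r s c) := by unfold ok; infer_instance

theorem okL : ∀ r ∈ S7, ∀ s ∈ gens, ok r s (tb r s) := by decide +kernel
theorem okC : ∀ r ∈ S11, ∀ s ∈ S11, ok r s [] := by decide +kernel
theorem okH : ∀ p ∈ [(24, 46), (26, 45), (31, 43), (32, 42)], ∀ r ∈ S11, ok r p.2 (if r = p.1 then [47] else []) := by
  decide +kernel

variable {F : Type*} [Field F] [CharP F 2]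

theorem sq1 {r : ℕ} (h : r < 48) : xG chevF4 F r 1 * xG chevF4 F r 1 = 1 := by
  rw [(stRel_xG chevF4 F).add r 1 1 h, CharTwo.add_self_eq_zero, xG_zero]

theorem ok.rel {r s : ℕ} {c : List ℕ} (h : ok r s c) : R (fun r => xG chevF4 F r 1) r s c := by
  obtain ⟨h1, h2, h3⟩ := h
  split_ifs at h3 with e
  · subst e h3; simp [R]
  · have := (ot_G chevF4 F).eq ⟨r, h1⟩ ⟨s, h2⟩ (fun h => e (congrArg Fin.val h))
      (ne_neg_of_add fun h => h3.1 (by have : r + s + 1 = 48 := h; omega)) 1 1
    simp only [one_pow, mul_one] at this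
    rw [R, ← h3.2, List.map_map]
    erw [← this]
    have h4 := sq1 (F := F) h1
    rw [inv_eq_of_mul_eq_one_right h4]
    simp [mul_assoc, h4]

theorem rel : Rel fun r => xG chevF4 F r 1 :=
  ⟨fun r hr s hs => (okL r hr s hs).rel, fun r hr => sq1 (okC r hr r hr).1, fun r hr s hs => (okC r hr s hs).rel,
    fun p hp r hr => (okH p hp r hr).rel⟩

/-- The permutation representation on functions. -/
def perm (G Ω : Type*) [Group G] [MulAction G Ω] : G →* Module.End ℚ (Ω → ℚ) where
  toFun g := LinearMap.funLeft ℚ ℚ (g⁻¹ • ·)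
  map_one' := by ext; simp
  map_mul' g h := by ext; simp [mul_smul]

theorem le_card {Ω : Type*} [MulAction (chevF4.group F) Ω] [Finite Ω] [FaithfulSMul (chevF4.group F) Ω] :
    448 ≤ Nat.card Ω := by
  classical
  have := Fintype.ofFinite Ω
  set z := xG chevF4 F 47 1 with hz
  have h1 : z ≠ 1 := fun e => one_ne_zero ((xG_eq_one_iff (by decide)).1 e)
  have h2 : z⁻¹ = z := inv_eq_of_mul_eq_one_right (sq1 (F := F) (by decide))
  obtain ⟨a, ha⟩ : ∃ a : Ω, z • a ≠ a := by
    by_contra h
    push Not at h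
    exact h1 (eq_of_smul_eq_smul (α := Ω) fun a => by rw [h a, one_smul])
  rw [Nat.card_eq_fintype_card, ← Module.finrank_fintype_fun_eq_card ℚ]
  refine le_finrank (ρ := perm _ Ω) (rel (F := F)) (v := fun b => (if b = a then 1 else 0) - if z • b = a then 1 else 0)
    (fun e => ?_) ?_
  · simpa [ha] using congrFun e a
  · ext b
    have : z • z • b = b := by rw [smul_smul, sq1 (F := F) (by decide), one_smul]
    simp [perm, ← hz, h2, this]

set_option synthInstance.maxSize 4000 in
theorem num : ∀ a < 730, a ∣ 729 → ∀ b < 1226, b ∣ 1225 → ∀ c < 222, c ∣ 221 → 448 ≤ a * (b * c) + 1 →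
    (a * (b * c) + 1) * (a * (b * c)) ∣ 3311126603366400 → a * (b * c) + 1 = 2 ^ 12 := by decide +kernel

end F42

theorem dvd_card_of_two {G Ω : Type*} [Group G] [MulAction G Ω] [Finite Ω] [Nontrivial Ω] (h : T2.Two G Ω) :
    Nat.card Ω * (Nat.card Ω - 1) ∣ Nat.card G := by
  classical
  have := Fintype.ofFinite Ω
  obtain ⟨a, b, hab⟩ := exists_pair_ne Ω
  have e : MulAction.orbit G (a, b) = ((Finset.univ : Finset Ω).offDiag : Set (Ω × Ω)) := by
    ext ⟨c, d⟩
    simp only [MulAction.mem_orbit_iff, Prod.smul_mk, Prod.mk.injEq, Finset.mem_coe, Finset.mem_offDiag,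
      Finset.mem_univ, true_and]
    exact ⟨fun ⟨g, h1, h2⟩ e => hab (MulAction.injective g (h1.trans (e.trans h2.symm))), h a b c d hab⟩
  have h1 := MulAction.index_stabilizer G (a, b)
  rw [e, Set.ncard_coe_finset, Finset.offDiag_card, Finset.card_univ, ← Nat.card_eq_fintype_card,
    ← Nat.mul_sub_one] at h1
  exact h1 ▸ Subgroup.index_dvd_card _

theorem f42 {F : Type*} [Field F] [Fintype F] (hF : Fintype.card F = 2) {Ω : Type*} [MulAction (chevF4.group F) Ω]
    [Finite Ω] [Nontrivial Ω] [FaithfulSMul (chevF4.group F) Ω] (h : T2.Two (chevF4.group F) Ω) :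
    Odd (Nat.card Ω) ∨ ∃ k, Nat.card Ω = 2 ^ k := by
  have : CharP F 2 := charP_of_card_eq_prime hF
  have h1 := F42.le_card (F := F) (Ω := Ω)
  have h2 : Nat.card (chevF4.group F) ∣ 3311126603366400 := by
    have := degrees_F4.card_group F
    rw [Nat.card_eq_fintype_card (α := F), hF, show chevF4.nroots / 2 = 24 from rfl] at this
    norm_num at this
    exact Dvd.intro _ (by exact_mod_cast this)
  have h3 := (dvd_card_of_two h).trans h2
  refine (Nat.even_or_odd _).symm.imp_right fun he => ⟨12, ?_⟩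
  obtain ⟨d, hd⟩ : ∃ d, Nat.card Ω = d + 1 := ⟨Nat.card Ω - 1, by omega⟩
  rw [hd] at h1 h3 he ⊢
  rw [Nat.add_sub_cancel] at h3
  have h4 : d ∣ 729 * (1225 * 221) := by
    refine Nat.Coprime.dvd_of_dvd_mul_left (m := 2 ^ 24) (Nat.Coprime.pow_right _ ?_) ((Dvd.intro_left _ rfl).trans h3)
    exact (Nat.not_even_iff_odd.1 (Nat.even_add_one.1 he)).coprime_two_right
  obtain ⟨a, e, ha, h5, rfl⟩ := (Nat.dvd_mul).1 h4
  obtain ⟨b, c, hb, hc, rfl⟩ := (Nat.dvd_mul).1 h5
  exact F42.num a (Nat.lt_succ_of_le (Nat.le_of_dvd (by norm_num) ha)) ha b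
    (Nat.lt_succ_of_le (Nat.le_of_dvd (by norm_num) hb)) hb c (Nat.lt_succ_of_le (Nat.le_of_dvd (by norm_num) hc)) hc h1 h3

end Cfsg.Agent.T2I
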