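/-
Linear characters of the maximal unipotent subgroup kill the non-simple root subgroups.
-/
import Cfsg.Agent.Lib.T2I.A0
import Cfsg.Agent.Lib.RD.G

set_option autoImplicit false

namespace Cfsg.Agent.T2I

open Cfsg.Lie Cfsg.Agent.Chev Cfsg.Agent.RD Cfsg.Agent.ChevM

section general

variable {ι I : Type*} [Fintype I] [DecidableEq I] {R : RSys ι I} {G : Type*} [Group G]
  {P : PreRGD R G} {N : Subgroup G}

/-- the subgroup contains the commutators of `U` -/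
def Cm (P : PreRGD R G) (N : Subgroup G) : Prop := ∀ a ∈ P.U, ∀ b ∈ P.U, a⁻¹ * b⁻¹ * a * b ∈ N

theorem hom_of (h : ∀ N, Cm P N → ∀ r, R.IsPos r → (∀ i, r ≠ R.simple i) → P.X r ≤ N) : Hom P := by
  intro l r hr hi x hx
  obtain ⟨y, hy, e⟩ := h (l.ker.map P.U.subtype) (fun a ha b hb =>
    ⟨⟨a, ha⟩⁻¹ * ⟨b, hb⟩⁻¹ * ⟨a, ha⟩ * ⟨b, hb⟩, by
      simp only [SetLike.mem_coe, MonoidHom.mem_ker, map_mul, map_inv]
      rw [mul_comm (l _)⁻¹, mul_assoc, mul_assoc, inv_mul_cancel_left, inv_mul_cancel], rfl⟩) r hr hi hx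
  exact (Subtype.ext e : y = x) ▸ hy

theorem Cm.long (c : Cm P N) (L : LD P) {α : ι} (hα : Lg R α) (h1 : R.IsPos α)
    (h2 : ∀ i, α ≠ R.simple i) : P.X α ≤ N := by
  obtain ⟨i, a1, a2⟩ := h1.exists_pair_pos
  obtain ⟨γ, a3⟩ := RSys.exists_sub_of_pair_pos a1 (h2 i)
  have a4 : R.IsPos γ := fun j => by
    have := h1 j
    rw [a3, R.rc_simple, Pi.sub_apply, Pi.single_apply]
    split_ifs with e
    · subst e; simp only [Pi.zero_apply]; omega
    · simpa using this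
  obtain ⟨y, hy, y1⟩ := L.ne γ
  intro z hz
  obtain ⟨x, hx, rfl⟩ := L.heis hα (β := R.simple i) (γ := γ) (by rw [a3]; abel) (by
    have := hα _ (h2 i).symm
    have := R.pair_pos_comm.1 a1
    omega) y hy y1 z hz
  simpa using c x⁻¹ (inv_mem (P.X_le_U (R.isPos_simple i) hx)) y⁻¹ (inv_mem (P.X_le_U a4 hy))

theorem Cm.mid (h : Cm P N) {a b c : G} (h1 : a * (b * c) ∈ N) (h2 : b ∈ N) (hb : b ∈ P.U)
    (hc : c ∈ P.U) : a * c ∈ N := by
  have := mul_mem (mul_mem h1 (h c hc b hb)) (inv_mem h2)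
  simpa [mul_assoc] using this

theorem two_kill {F : Type*} [Field F] {A B : F → G} (hB : ∀ t u, B t * B u = B (t + u)) {c d w : F}
    (hc : c ≠ 0) (hd : d ≠ 0) {j : ℕ} (w0 : w ≠ 0) (w1 : w ^ j ≠ 1)
    (h : ∀ t u, A (c * -t * u) * B (d * -t * u ^ (j + 1)) ∈ N) : (∀ t, A t ∈ N) ∧ ∀ t, B t ∈ N := by
  have h1 : ∀ t, B t ∈ N := fun t => by
    have h2 := sub_ne_zero.2 w1
    have a := h (-(t / (d * (w ^ j - 1)))) 1
    have b := h (-(t / (d * (w ^ j - 1)) / w)) w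
    rw [show c * - -(t / (d * (w ^ j - 1)) / w) * w = c * - -(t / (d * (w ^ j - 1))) * 1 by field_simp,
      show d * - -(t / (d * (w ^ j - 1)) / w) * w ^ (j + 1) =
        d * - -(t / (d * (w ^ j - 1))) * 1 ^ (j + 1) + t by field_simp; ring, ← hB, ← mul_assoc] at b
    exact (mul_mem_cancel_left a).1 b
  refine ⟨fun t => ?_, h1⟩
  have := (mul_mem_cancel_right (h1 _)).1 (h (-(t / c)) 1)
  rwa [show c * - -(t / c) * 1 = t by field_simp] at this

end general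

section untwisted

variable {D : ChevalleyDatum} [Tab D] {F : Type*} [Field F]

theorem hom_sl [Finite F] [SLaced D] : Hom (PG D F) := hom_of fun _ c r => c.long ld_sl (lg_sl r)

theorem hom_E6 [Finite F] : Hom (PG chevE6 F) := hom_sl
theorem hom_E7 [Finite F] : Hom (PG chevE7 F) := hom_sl
theorem hom_E8 [Finite F] : Hom (PG chevE8 F) := hom_sl

variable {N : Subgroup (D.group F)}

theorem xU {r : ℕ} (hr : r < D.nroots ∧ D.nroots ≤ 2 * r) (t : F) : xG D F r t ∈ (PG D F).U :=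
  (PG D F).X_le_U (r := ⟨r, hr.1⟩) ((rs_isPos_iff_le _).2 hr.2) (mem_X_iff.2 ⟨t, rfl⟩)

theorem Cm.word (c : Cm (PG D F) N) {r s : ℕ} {L : List (ℕ × ℤ × ℕ × ℕ)}
    (h : (r < D.nroots ∧ D.nroots ≤ 2 * r) ∧ (s < D.nroots ∧ D.nroots ≤ 2 * s) ∧ s ≠ r ∧
      D.commTerms r s = L) (t u : F) :
    wordVal (xG D F) (L.map fun c => (c.1, (c.2.1 : F) * (-t) ^ c.2.2.1 * u ^ c.2.2.2)) ∈ N := by
  obtain ⟨hr, hs, h1, rfl⟩ := h
  have := c _ (xU hs u) _ (xU hr t)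
  rwa [(stRel_xG D F).comm r s t u hr.1 hs.1 h1 (by rw [neg_eq hr.1]; omega)] at this

theorem Cm.one (c : Cm (PG D F) N) {r s a : ℕ} {e : ℤ} (he : (e : F) ≠ 0)
    (h : (r < D.nroots ∧ D.nroots ≤ 2 * r) ∧ (s < D.nroots ∧ D.nroots ≤ 2 * s) ∧ s ≠ r ∧
      D.commTerms r s = [(a, e, 1, 1)]) (t : F) : xG D F a t ∈ N := by
  have := c.word h (-(t / e)) 1
  simpa [mul_div_cancel₀ _ he] using this

theorem le_of_x {r : Fin D.nroots} (h : ∀ t, xG D F r t ∈ N) : (PG D F).X r ≤ N := fun _ hg =>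
  let ⟨t, e⟩ := mem_X_iff.1 hg; e ▸ h t

theorem exists_pow_ne [Finite F] {j : ℕ} (hj : 0 < j) (h : j + 2 ≤ Nat.card F) :
    ∃ w : F, w ≠ 0 ∧ w ^ j ≠ 1 := by
  obtain ⟨s, hs⟩ := exists_zpow_ne_one (K := F) (n := j) fun h' => by
    have := Int.le_of_dvd (by omega) h'
    omega
  exact ⟨s, s.ne_zero, fun e => hs (Units.ext (by simpa using e))⟩

/-- pairs of roots with a commutator of one term -/
def f4a : List (ℕ × ℕ × ℕ) := [(24, 25, 26), (24, 30, 31), (27, 33, 34), (27, 35, 37), (27, 39, 40),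
  (24, 41, 42), (33, 40, 44), (25, 45, 46), (24, 46, 47)]

/-- pairs of roots with a commutator of two terms -/
def f4b : List (ℕ × ℕ × ℕ × ℕ × ℤ) := [(25, 27, 28, 30, -1), (24, 28, 29, 32, -1), (25, 34, 35, 41, 1),
  (24, 35, 36, 43, 1), (24, 37, 38, 45, 1), (25, 38, 39, 47, 1)]

theorem hom_F4 [Finite F] (hF : 3 ≤ Nat.card F) : Hom (PG chevF4 F) := hom_of fun N c α h1 h2 => by
  obtain ⟨w, w0, w1⟩ := exists_pow_ne (F := F) (j := 1) one_pos hF
  have one : ∀ p ∈ f4a, ∀ t, xG chevF4 F p.2.2 t ∈ N := fun p hp =>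
    c.one (r := p.1) (s := p.2.1) (e := 1) (by simp) (by revert p; decide +kernel)
  have two : ∀ p ∈ f4b, (∀ t, xG chevF4 F p.2.2.1 t ∈ N) ∧ ∀ t, xG chevF4 F p.2.2.2.1 t ∈ N := fun p hp =>
    two_kill (xG_add _) (c := ((1 : ℤ) : F)) (d := (p.2.2.2.2 : F)) (by simp) (by
      obtain e | e := (by decide : ∀ p ∈ f4b, p.2.2.2.2 = 1 ∨ p.2.2.2.2 = -1) p hp <;> simp [e]) w0 w1
      fun t u => by
        simpa using c.word (r := p.1) (s := p.2.1) (L := [(p.2.2.1, 1, 1, 1), (p.2.2.2.1, p.2.2.2.2, 1, 2)])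
          (by revert p; decide +kernel) t u
  refine le_of_x ?_
  obtain ⟨i, e⟩ | ⟨p, hp, e⟩ | ⟨p, hp, e | e⟩ := (by decide +kernel : ∀ α : Fin chevF4.nroots,
    chevF4.nroots ≤ 2 * α.1 → (∃ i : Fin chevF4.rank, chevF4.simple i = α) ∨ (∃ p ∈ f4a, p.2.2 = α) ∨
      ∃ p ∈ f4b, p.2.2.1 = α ∨ p.2.2.2.1 = α) α ((rs_isPos_iff_le α).1 h1)
  exacts [(h2 i (Fin.ext e.symm)).elim, e ▸ one p hp, e ▸ (two p hp).1, e ▸ (two p hp).2]

theorem hom_G2 [Finite F] (hF : 4 ≤ Nat.card F) : Hom (PG chevG2 F) := hom_of fun N c α h1 h2 => by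
  have k11 := c.one (r := 6) (s := 10) (a := 11) (e := 1) (by simp) (by decide +kernel)
  have k67 := c.word (r := 6) (s := 7) (L := [(8, 1, 1, 1), (9, 1, 1, 2), (10, -1, 1, 3), (11, -2, 2, 3)])
    (by decide +kernel)
  simp only [List.map, wordVal_cons, wordVal_nil, mul_one, ← mul_assoc,
    mul_mem_cancel_right (k11 _), pow_one] at k67
  have key : (∀ t, xG chevG2 F 8 t ∈ N) ∧ (∀ t, xG chevG2 F 9 t ∈ N) ∧ ∀ t, xG chevG2 F 10 t ∈ N := by
    by_cases h3 : ((3 : ℤ) : F) = 0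
    · obtain ⟨w, w0, w1⟩ := exists_pow_ne (F := F) (j := 2) two_pos hF
      have k9 : ∀ t, xG chevG2 F 9 t ∈ N := fun t => by
        have := c.word (r := 7) (s := 8) (L := [(9, -2, 1, 1), (10, -3, 2, 1), (11, 3, 1, 2)])
          (by decide +kernel) (-t) 1
        simp only [List.map, wordVal_cons, wordVal_nil, mul_one, ← mul_assoc, Int.cast_neg, h3,
          mul_mem_cancel_right (k11 _), neg_zero, zero_mul, xG_zero, pow_one, neg_neg] at this
        rwa [show -((2 : ℤ) : F) * t = t by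
          push_cast at h3 ⊢; linear_combination (-t) * h3] at this
      obtain ⟨a, b⟩ := two_kill (A := xG chevG2 F 8) (xG_add 10) (c := ((1 : ℤ) : F)) (d := ((-1 : ℤ) : F))
        (by simp) (by simp) w0 w1 fun t u => c.mid (by simpa only [mul_assoc] using k67 t u) (k9 _)
          (xU (by decide) _) (xU (by decide) _)
      exact ⟨a, k9, b⟩
    · obtain ⟨w, w0, w1⟩ := exists_pow_ne (F := F) (j := 1) one_pos (by omega)
      have k10 := c.one (r := 7) (s := 9) (a := 10) (e := 3) h3 (by decide +kernel)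
      obtain ⟨a, b⟩ := two_kill (A := xG chevG2 F 8) (xG_add 9) (c := ((1 : ℤ) : F)) (d := ((1 : ℤ) : F))
        (by simp) (by simp) w0 w1 fun t u => (mul_mem_cancel_right (k10 _)).1 (k67 t u)
      exact ⟨a, b, k10⟩
  refine le_of_x ?_
  have a1 : α.1 ≠ 7 := fun e => h2 ⟨0, by decide⟩ (Fin.ext e)
  have a2 : α.1 ≠ 6 := fun e => h2 ⟨1, by decide⟩ (Fin.ext e)
  have a3 : 12 ≤ 2 * α.1 := (rs_isPos_iff_le α).1 h1
  have a4 : α.1 < 12 := α.2
  obtain e | e | e | e : α.1 = 8 ∨ α.1 = 9 ∨ α.1 = 10 ∨ α.1 = 11 := by omega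
  all_goals rw [e]
  exacts [key.1, key.2.1, key.2.2, k11]

end untwisted

end Cfsg.Agent.T2I
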