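/-
Doubly transitive groups with an intransitive Borel subgroup: the action of a minimal parabolic subgroup on the orbits
of its unipotent radical.
-/
import Cfsg.Agent.Lib.T2X.TF4a

set_option autoImplicit false

namespace Cfsg.Agent.T2I.TF

open MulAction Finset Cfsg.Agent.T2X.TF
open scoped Classical

variable {G Ω X : Type*} [Group G] [MulAction G Ω] [MulAction G X]

/-- The number of indices `k ∈ s` with `γ k • x = y`. -/
noncomputable def cnt {κ : Type*} (s : Finset κ) (γ : κ → G) (x y : X) : ℕ := (s.filter fun k => γ k • x = y).card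

theorem sum_cnt [Fintype X] {κ : Type*} (s : Finset κ) (γ : κ → G) (x : X) (p : X → Prop) :
    ∑ y with p y, cnt s γ x y = (s.filter fun k => p (γ k • x)).card := by
  rw [card_eq_sum_card_fiberwise (f := fun k => γ k • x) (t := univ.filter p) fun k hk => by simpa using (mem_filter.1 hk).2]
  refine sum_congr rfl fun y hy => congrArg card ?_
  ext k
  simp only [mem_filter, and_assoc]
  exact and_congr_right fun _ => ⟨fun e => ⟨e ▸ (mem_filter.1 hy).2, e⟩, fun e => e.2⟩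

theorem sum_cnt' [Fintype X] {κ : Type*} (s : Finset κ) (γ : κ → G) (x : X) (p : X → Prop) :
    ∑ y with p y, cnt s γ y x = (s.filter fun k => p ((γ k)⁻¹ • x)).card := by
  rw [← sum_cnt s (fun k => (γ k)⁻¹) x p]
  exact sum_congr rfl fun y _ => congrArg card (filter_congr fun k _ => by rw [inv_smul_eq_iff, eq_comm])

theorem transfer [Fintype Ω] [Fintype X] (h : T2.Two G Ω) {I : Ω → X → Prop}
    (hI : ∀ (g : G) a x, I a x → I (g • a) (g • x)) {a₀ b₀ : Ω} {x₀ : X} (h1 : I a₀ x₀) (h2 : ¬ I b₀ x₀)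
    {κ κ' : Type*} {s : Finset κ} {t : Finset κ'} {γ : κ → G} {γ' : κ' → G} {c : ℕ}
    (hc : ∀ x y : X, cnt s γ x y = c * cnt t γ' x y) (a b : Ω) : cnt s γ a b = c * cnt t γ' a b := by
  have key := h.fisher hI h1 h2 (K := ℚ) (f := fun b => (cnt s γ a b : ℚ) - c * cnt t γ' a b) fun x => by
    have e : ∀ {κ : Type _} (s : Finset κ) (γ : κ → G), ∑ b with I b x, cnt s γ a b = ∑ y with I a y, cnt s γ y x :=
      fun s γ => by
        rw [sum_cnt, sum_cnt']
        exact congrArg card (filter_congr fun k _ => by rw [← T2.inv_iff hI (γ k)⁻¹, inv_smul_smul])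
    have e' : ∑ b with I b x, cnt t γ' a b = ∑ y with I a y, cnt t γ' y x := by
      rw [sum_cnt, sum_cnt']
      exact congrArg card (filter_congr fun k _ => by rw [← T2.inv_iff hI (γ' k)⁻¹, inv_smul_smul])
    rw [sum_sub_distrib, ← mul_sum, sub_eq_zero]
    norm_cast
    rw [e, e', mul_sum]
    exact sum_congr rfl fun y _ => hc y x
  have := congrFun key b
  simp only [Pi.zero_apply, sub_eq_zero] at this
  exact_mod_cast this

theorem eq_of_sum [Fintype X] {f g : X → ℕ} (p : X → Prop) (h1 : ∀ y, ¬ p y → f y = g y) {x : X} (hx : p x)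
    (h2 : ∀ y, p y → f y = f x) (h3 : ∀ y, p y → g y = g x) (h : ∑ y, f y = ∑ y, g y) : f x = g x := by
  rw [← sum_filter_add_sum_filter_not _ p f, ← sum_filter_add_sum_filter_not _ p g,
    sum_congr rfl fun y hy => h2 y (mem_filter.1 hy).2, sum_congr rfl fun y hy => h3 y (mem_filter.1 hy).2,
    sum_congr rfl fun y hy => h1 y (mem_filter.1 hy).2, add_left_inj, sum_const, sum_const, smul_eq_mul,
    smul_eq_mul] at h
  exact Nat.eq_of_mul_eq_mul_left (card_pos.2 ⟨x, mem_filter.2 ⟨mem_univ _, hx⟩⟩) h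

variable [Fintype G]

/-- The pairs `(p, u)` with `p ∈ P` and `u ∈ U \ R`. -/
noncomputable def prs (P U R : Subgroup G) : Finset (G × G) := univ.filter fun k => k.1 ∈ P ∧ k.2 ∈ U ∧ k.2 ∉ R

/-- Conjugation. -/
def cj (k : G × G) : G := k.1 * k.2 * k.1⁻¹

variable {P B U R : Subgroup G}

theorem mem_prs {k : G × G} : k ∈ prs P U R ↔ k.1 ∈ P ∧ k.2 ∈ U ∧ k.2 ∉ R := by simp [prs]

theorem cnt_smul {g : G} (hg : g ∈ P) (x y : X) : cnt (prs P U R) cj (g • x) (g • y) = cnt (prs P U R) cj x y := by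
  refine (card_bijective (fun k : G × G => (g * k.1, k.2)) ((Equiv.mulLeft g).prodCongr (Equiv.refl G)).bijective
    fun k => ?_).symm
  simp [prs, cj, mul_smul, mul_mem_cancel_left hg]

theorem cnt_right (hR : ∀ p ∈ P, ConjLe p R R) (hRU : R ≤ U) {r : G} (hr : r ∈ R) (x y : X) :
    cnt (prs P U R) cj x (r • y) = cnt (prs P U R) cj x y := by
  refine (card_bijective (fun k : G × G => (k.1, k.1⁻¹ * r * k.1 * k.2)) ?_ fun k => ?_).symm
  · exact Function.bijective_iff_has_inverse.2 ⟨fun k => (k.1, (k.1⁻¹ * r * k.1)⁻¹ * k.2), fun k => by simp [mul_assoc],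
      fun k => by simp [mul_assoc]⟩
  by_cases hp : k.1 ∈ P
  · have h1 : k.1⁻¹ * r * k.1 ∈ R := by simpa using hR _ (inv_mem hp) r hr
    rw [mem_filter, mem_filter, mem_prs, mem_prs, R.mul_mem_cancel_left h1, U.mul_mem_cancel_left (hRU h1)]
    simp [cj, mul_smul]
  · simp [prs, hp]

theorem cnt_id {g : G} (hg : g ∈ P) (x : X) :
    cnt (univ.filter (· ∈ P)) id x (g • x) = Nat.card ↥(P ⊓ stabilizer G x) := by
  rw [Nat.card_eq_fintype_card, Fintype.card_subtype]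
  refine (card_bijective (fun k => g * k) (Equiv.mulLeft g).bijective fun k => ?_).symm
  simp [mul_smul, mul_mem_cancel_left hg]

theorem cnt_self (x : X) : cnt (prs P U R) cj x x = ∑ p with p ∈ P, (fx U R (p⁻¹ • x)).ncard := by
  rw [cnt, card_eq_sum_card_fiberwise (f := Prod.fst) (t := univ.filter (· ∈ P)) fun k hk => by
    simpa using (mem_filter.1 (mem_filter.1 hk).1).2.1]
  refine sum_congr rfl fun p hp => ?_
  rw [← Set.ncard_coe_finset, ← Set.ncard_image_of_injective _ (f := fun u : G => (p, u)) (Prod.mk_right_injective p)]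
  congr 1
  ext ⟨p', u⟩
  rw [mem_coe, mem_filter, mem_filter, mem_prs]
  simp only [cj, fx, Set.mem_ofPred_eq, Set.mem_image, Prod.mk.injEq]
  constructor
  · rintro ⟨⟨⟨-, h1, h2⟩, h3⟩, rfl⟩
    exact ⟨u, ⟨h1, h2, by rwa [mul_smul, mul_smul, smul_eq_iff_eq_inv_smul] at h3⟩, rfl, rfl⟩
  · rintro ⟨u, ⟨h1, h2, h3⟩, rfl, rfl⟩
    exact ⟨⟨⟨by simpa using hp, h1, h2⟩, by rw [mul_smul, mul_smul, h3, smul_inv_smul]⟩, rfl⟩

/-- A minimal parabolic subgroup `P`, a Borel subgroup `B` and their unipotent radicals. -/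
structure Par (P B U R : Subgroup G) : Prop where
  RU : R ≤ U
  UB : U ≤ B
  BP : B ≤ P
  hR : ∀ p ∈ P, ConjLe p R R
  hU : ∀ b ∈ B, ConjLe b U U
  out : ∀ p ∈ P, p ∉ B → ∀ u ∈ U, p * u * p⁻¹ ∈ B → u ∈ R
  two : ∀ p ∈ P, p ∉ B → ∀ p' ∈ P, p' ∉ B → ∃ b ∈ B, ∃ b' ∈ B, p = b * p' * b'

theorem Par.fx_eq (h : Par P B U R) {b : G} (hb : b ∈ B) (x : X) : (fx U R (b • x)).ncard = (fx U R x).ncard :=
  le_antisymm (by simpa using ncard_fx_le (h.hU _ (inv_mem hb)) (h.hR _ (inv_mem (inv_mem (h.BP hb)))) (b • x))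
    (ncard_fx_le (h.hU b hb) (h.hR _ (inv_mem (h.BP hb))) x)

theorem Par.cnt_good [Fintype X] (h : Par P B U R) {x : X} (h1 : ∀ g ∈ P, g • x = x → g ∈ B)
    (h2 : ∀ b ∈ B, ∃ r ∈ R, r • x = b • x) (y : X) :
    cnt (prs P U R) cj x y = ((U : Set G) \ R).ncard * cnt (univ.filter (· ∈ P)) id x y := by
  set c := ((U : Set G) \ R).ncard
  have e0 : ∀ y, (¬ ∃ p ∈ P, p • x = y) → cnt (prs P U R) cj x y = c * cnt (univ.filter (· ∈ P)) id x y := fun y hy => by
    rw [cnt, cnt, filter_eq_empty_iff.2, filter_eq_empty_iff.2, card_empty, card_empty, mul_zero]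
    · exact fun k hk e => hy ⟨k, by simpa using hk, e⟩
    · intro k hk e
      obtain ⟨a1, a2, -⟩ := (mem_filter.1 hk).2
      exact hy ⟨_, mul_mem (mul_mem a1 (h.BP (h.UB a2))) (inv_mem a1), e⟩
  have e1 : ∀ r ∈ R, cnt (prs P U R) cj x (r • x) = c * cnt (univ.filter (· ∈ P)) id x (r • x) := fun r hr => by
    rw [cnt_right h.hR h.RU hr, cnt_id (h.BP (h.UB (h.RU hr))), cnt_self, ← sum_filter_add_sum_filter_not _ (· ∈ B),
      sum_eq_zero (s := filter (¬ · ∈ B) _) fun p hp => ?_, sum_congr rfl fun p hp => h.fx_eq (inv_mem (mem_filter.1 hp).2) x,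
      sum_const, smul_eq_mul, add_zero, filter_filter, filter_congr (q := (· ∈ B)) fun p _ => and_iff_right_of_imp (h.BP ·),
      ← Fintype.card_subtype, ← Nat.card_eq_fintype_card,
      show P ⊓ stabilizer G x = B ⊓ stabilizer G x from le_antisymm (fun g hg => ⟨h1 g hg.1 hg.2, hg.2⟩)
        (inf_le_inf_right _ h.BP)]
    · have o : ∀ A : Subgroup G, R ≤ A → A ≤ B → orbit A x = orbit R x := fun A a1 a2 => Set.ext fun y =>
        ⟨by rintro ⟨⟨b, hb⟩, rfl⟩; obtain ⟨r, hr, e⟩ := h2 b (a2 hb); exact ⟨⟨r, hr⟩, e⟩,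
          by rintro ⟨⟨b, hb⟩, rfl⟩; exact ⟨⟨b, a1 hb⟩, rfl⟩⟩
      have a1 := T2.ncard_orbit_mul B x
      have a2 := T2.ncard_orbit_mul U x
      have a3 := T2.ncard_orbit_mul R x
      have a4 := ncard_fx_add h.RU x
      have a5 := ncard_diff h.RU
      rw [o B (h.RU.trans h.UB) le_rfl] at a1
      rw [o U h.RU h.UB, ← a4, ← a5, ← a3, mul_add, add_left_inj] at a2
      rw [← a1, show c = _ from a2.symm]
      ring
    · obtain ⟨hp, hp'⟩ := mem_filter.1 hp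
      have hp : p ∈ P := by simpa using hp
      refine (Set.ncard_eq_zero (Set.toFinite _)).2 (Set.eq_empty_of_forall_notMem fun u hu => hu.2.1 ?_)
      exact h.out p hp hp' u hu.1 (h1 _ (mul_mem (mul_mem hp (h.BP (h.UB hu.1))) (inv_mem hp))
        (by rw [mul_smul, mul_smul, hu.2.2, smul_inv_smul]))
  by_cases hy : (∃ p ∈ P, p • x = y) ∧ ¬ ∃ r ∈ R, r • x = y
  swap
  · rw [not_and_or, not_not] at hy
    rcases hy with hy | ⟨r, hr, rfl⟩
    exacts [e0 y hy, e1 r hr]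
  obtain ⟨⟨p, hp, rfl⟩, hy⟩ := hy
  have nb : ∀ p, (¬ ∃ r ∈ R, r • x = p • x) → p ∉ B := fun p hy hb => hy (h2 p hb)
  have e2 : ∀ y, (∃ p ∈ P, p • x = y) ∧ (¬ ∃ r ∈ R, r • x = y) →
      cnt (prs P U R) cj x y = cnt (prs P U R) cj x (p • x) := by
    rintro _ ⟨⟨p', hp', rfl⟩, hy'⟩
    obtain ⟨b, hb, b', hb', rfl⟩ := h.two p' hp' (nb p' hy') p hp (nb p hy)
    obtain ⟨r', hr', e'⟩ := h2 b' hb'
    obtain ⟨r, hr, e⟩ := h2 b hb
    have hk : (r⁻¹ * b) • x = x := by rw [mul_smul, ← e, inv_smul_smul]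
    have := cnt_smul (P := P) (U := U) (R := R) (mul_mem (inv_mem (h.BP (h.UB (h.RU hr)))) (h.BP hb)) x (p • x)
    rw [hk] at this
    rw [← this, ← cnt_right h.hR h.RU (mul_mem (h.hR _ (mul_mem (h.BP hb) hp) r' hr') hr) x ((r⁻¹ * b) • p • x),
      mul_smul (b * p), ← e']
    simp [mul_smul]
  have s1 := sum_cnt (prs P U R) cj x fun _ => True
  have s2 := sum_cnt (univ.filter (· ∈ P)) id x fun _ => True
  have s3 : (prs P U R).card = c * (univ.filter (· ∈ P)).card := by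
    rw [show prs P U R = univ.filter (· ∈ P) ×ˢ univ.filter fun u => u ∈ U ∧ u ∉ R from by ext; simp [prs], card_product,
      mul_comm, ← Set.ncard_coe_finset]
    congr 2
    ext; simp
  simp only [filter_true] at s1 s2
  rw [s3, ← s2, mul_sum] at s1
  refine eq_of_sum (fun y => (∃ p ∈ P, p • x = y) ∧ ¬ ∃ r ∈ R, r • x = y) (fun y hy => ?_) ⟨⟨p, hp, rfl⟩, hy⟩ e2
    (fun y hy => ?_) s1
  · rw [not_and_or, not_not] at hy
    rcases hy with hy | ⟨r, hr, rfl⟩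
    exacts [e0 y hy, e1 r hr]
  · obtain ⟨p', hp', rfl⟩ := hy.1
    rw [cnt_id hp, cnt_id hp']

theorem Par.cnt_eq [Fintype X] (h : Par P B U R)
    (hx : ∀ x : X, ∃ p ∈ P, (∀ g ∈ P, g • p • x = p • x → g ∈ B) ∧ ∀ b ∈ B, ∃ r ∈ R, r • p • x = b • p • x)
    (x y : X) : cnt (prs P U R) cj x y = ((U : Set G) \ R).ncard * cnt (univ.filter (· ∈ P)) id x y := by
  obtain ⟨p, hp, h1, h2⟩ := hx x
  rw [← cnt_smul hp, h.cnt_good h1 h2]
  congr 1
  refine card_bijective (fun k => p⁻¹ * k * p) ((MulAut.conj p).symm.bijective) fun k => ?_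
  simp [mul_smul, P.mul_mem_cancel_left (inv_mem hp), P.mul_mem_cancel_right hp, inv_smul_eq_iff]

omit [Fintype G] in
theorem dvd_sum_of_orbits [Fintype Ω] {S : Ω → Prop} (hS : ∀ u ∈ U, ∀ a, S a → S (u • a)) {F : Ω → ℕ}
    (hF : ∀ u ∈ U, ∀ a, F (u • a) = F a) {m : ℕ} (h : ∀ a, S a → m ∣ (orbit U a).ncard * F a) :
    m ∣ ∑ a with S a, F a := by
  rw [← sum_fiberwise_of_maps_to (g := fun a => orbit U a) fun a ha => mem_image_of_mem _ ha]
  refine dvd_sum fun o ho => ?_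
  obtain ⟨a, ha, rfl⟩ := mem_image.1 ho
  have ha := (mem_filter.1 ha).2
  rw [sum_congr (s₂ := (orbit U a).toFinset) (g := fun _ => F a) ?_ ?_, sum_const, smul_eq_mul, ← Set.ncard_eq_toFinset_card']
  · exact h a ha
  · ext b
    simp only [mem_filter, mem_univ, true_and, Set.mem_toFinset, orbit_eq_iff, and_iff_right_iff_imp]
    rintro ⟨⟨u, hu⟩, rfl⟩
    exact hS u hu a ha
  · intro b hb
    obtain ⟨⟨u, hu⟩, rfl⟩ := Set.mem_toFinset.1 hb
    exact hF u hu a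

theorem sum_inv_smul [Fintype Ω] (F : Ω → ℕ) (a : Ω) : ∑ p with p ∈ P, F (p⁻¹ • a) =
    Nat.card ↥(P ⊓ stabilizer G a) * ∑ b with ∃ p ∈ P, p • a = b, F b := by
  rw [← sum_fiberwise_of_maps_to (g := fun p : G => p⁻¹ • a) (t := univ.filter fun b => ∃ p ∈ P, p • a = b)
    fun p hp => mem_filter.2 ⟨mem_univ _, _, inv_mem (mem_filter.1 hp).2, rfl⟩, mul_sum]
  refine sum_congr rfl fun b hb => ?_
  obtain ⟨g, hg, rfl⟩ := (mem_filter.1 hb).2
  rw [sum_congr rfl fun p hp => congrArg F (mem_filter.1 hp).2, sum_const, smul_eq_mul, ← cnt_id hg a]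
  congr 1
  exact card_bijective (·⁻¹) inv_involutive.bijective fun p => by simp

/-- If `|U_a|` is maximal, then `U = R U_a`. -/
theorem Par.exists_smul_eq [Finite Ω] (h : Par P B U R) (h2 : T2.Two G Ω) (hB : ¬ ∀ a b : Ω, ∃ g ∈ B, g • a = b)
    (hx : ∀ x : G ⧸ B, ∃ p ∈ P, (∀ g ∈ P, g • p • x = p • x → g ∈ B) ∧ ∀ b ∈ B, ∃ r ∈ R, r • p • x = b • p • x)
    (hU : IsPGroup 2 U) {a : Ω} (ha : ∀ b : Ω, Nat.card ↥(U ⊓ stabilizer G b) ≤ Nat.card ↥(U ⊓ stabilizer G a))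
    {u : G} (hu : u ∈ U) : ∃ r ∈ R, r • a = u • a := by
  have := Fintype.ofFinite Ω
  have := Fintype.ofFinite (G ⧸ B)
  obtain ⟨I, hI, a', b', x, h3, h4⟩ := T2.exists_inc hB
  have h5 := transfer h2 hI h3 h4 (h.cnt_eq hx) a a
  have h6 := cnt_id (one_mem P) a
  rw [one_smul] at h6
  rw [cnt_self, h6, sum_inv_smul fun b => (fx U R b).ncard, mul_comm] at h5
  replace h5 := Nat.eq_of_mul_eq_mul_right Nat.card_pos h5
  have pw : ∀ A ≤ U, ∃ k, Nat.card A = 2 ^ k := fun A hA => IsPGroup.iff_card.mp (hU.to_le hA)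
  have sub : ∀ b : Ω, orbit R b ⊆ orbit U b := by rintro b _ ⟨⟨r, hr⟩, rfl⟩; exact ⟨⟨r, h.RU hr⟩, rfl⟩
  have cR : ∀ p ∈ P, Nat.card ↥(R ⊓ stabilizer G (p • a)) = Nat.card ↥(R ⊓ stabilizer G a) := fun p hp => by
    have e := fun (p : G) (hp : p ∈ P) (b : Ω) =>
      ncard_fx_le (Z := ⊥) (h.hR p hp) (fun x hx => by simp [Subgroup.mem_bot.1 hx]) b
    have e1 := e p hp a
    have e2 := e _ (inv_mem hp) (p • a)
    rw [inv_smul_smul] at e2
    rw [← ncard_fx_add bot_le, ← ncard_fx_add (X := R) bot_le, bot_inf_eq, bot_inf_eq, le_antisymm e1 e2]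
  by_contra hn
  have lt : (orbit R a).ncard < (orbit U a).ncard := Set.ncard_lt_ncard ⟨sub a, fun e => by
    obtain ⟨⟨r, hr⟩, e⟩ := e (show u • a ∈ orbit U a from ⟨⟨u, hu⟩, rfl⟩)
    exact hn ⟨r, hr, e⟩⟩
  obtain ⟨k, hk⟩ := pw U le_rfl
  obtain ⟨l, hl⟩ := pw R h.RU
  have dv : ∀ n, 2 ^ l < n → (∃ i, n = 2 ^ i) → 2 * 2 ^ l ∣ n := by
    rintro _ h ⟨i, rfl⟩
    rw [← pow_succ']
    exact pow_dvd_pow 2 ((Nat.pow_lt_pow_iff_right one_lt_two).1 h)
  have d1 : 2 * 2 ^ l ∣ Nat.card U := dv _ (by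
    rw [← hl, ← T2.ncard_orbit_mul U a, ← T2.ncard_orbit_mul R a]
    exact Nat.mul_lt_mul_of_lt_of_le lt (Subgroup.card_le_of_le (inf_le_inf_right _ h.RU)) Nat.card_pos) ⟨k, hk⟩
  have h7 := dvd_sum_of_orbits (U := U) (S := fun b => ∃ p ∈ P, p • a = b) (F := fun b => (fx U R b).ncard)
    (m := 2 * 2 ^ l) (by rintro u hu _ ⟨p, hp, rfl⟩; exact ⟨u * p, mul_mem (h.BP (h.UB hu)) hp, mul_smul _ _ _⟩)
    (fun u hu b => h.fx_eq (h.UB hu) b) (by
      rintro _ ⟨p, hp, rfl⟩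
      have e1 := T2.ncard_orbit_mul U (p • a)
      have e2 := T2.ncard_orbit_mul U a
      have e3 := T2.ncard_orbit_mul R a
      have e4 : (orbit U a).ncard ≤ (orbit U (p • a)).ncard := Nat.le_of_mul_le_mul_right
        (by rw [e2, ← e1]; exact Nat.mul_le_mul_left _ (ha _)) Nat.card_pos
      obtain ⟨i, -, hi⟩ := (Nat.dvd_prime_pow Nat.prime_two).1 (hk ▸ Dvd.intro _ e1)
      obtain ⟨j, hj⟩ := pw (R ⊓ stabilizer G a) (inf_le_left.trans h.RU)
      have d2 := dv ((orbit U (p • a)).ncard * Nat.card ↥(R ⊓ stabilizer G a))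
        (by rw [← hl, ← e3]; exact Nat.mul_lt_mul_of_lt_of_le (lt.trans_le e4) le_rfl Nat.card_pos)
        ⟨i + j, by rw [hi, hj, pow_add]⟩
      rw [← ncard_fx_add h.RU, cR p hp, mul_add] at e1
      exact (Nat.dvd_add_left d2).1 (e1 ▸ d1))
  have h8 := ncard_diff h.RU
  rw [← h8, Nat.dvd_add_right (by rw [← h5]; convert h7), hl] at d1
  exact absurd (Nat.le_of_dvd (by positivity) d1) (by have := Nat.two_pow_pos l; omega)

end Cfsg.Agent.T2I.TF
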