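/-
Minimal parabolic subgroups of the fixed point group of a folding, acting on a doubly transitive set.
-/
import Cfsg.Agent.Lib.T2I.TF4a
import Cfsg.Agent.Lib.Tw.OutA

set_option autoImplicit false

namespace Cfsg.Agent.T2I.TF

open MulAction Cfsg.Agent.Chev Cfsg.Agent.Chev.RSys Cfsg.Agent.Chev.PreRGD Cfsg.Agent.Chev.Fold

variable {ι I : Type*} [Fintype I] [DecidableEq I] {R : RSys ι I} {G : Type*} [Group G] [Fintype ι] [DecidableEq ι]
  {P : PreRGD R G} {F : Fold P} {Γ : Type*} [Group Γ] {f : Γ →* G} (E : F.Emb f)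
include E

theorem cell_cases {i : I} {g : Γ} (hg : f g ∈ P.PJ (F.orb i)) : ∃ m u v, f u ∈ P.U ∧ f v ∈ P.U ∧ g = u * m * v ∧
    (f m ∈ P.H ∨ P.Over (f m) (F.s i)) := by
  obtain ⟨w, hw, m, u, v, hm, hu, hv, rfl⟩ := E.bruhat g
  replace hv := P.Uw_le_U w hv
  refine ⟨m, u, v, hu, hv, rfl, ?_⟩
  rcases eq_one_or_s hw (E.nd.mem_WJ_of_mem_cell hm.1 (by simpa using hm.bruhat_mem_cell hu hv) hg) with rfl | rfl
  exacts [Or.inl (over_one_iff.mp hm), Or.inr hm]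

theorem cell_out {i : I} {g : Γ} (hg : f g ∈ P.PJ (F.orb i)) (h : f g ∉ P.B) : ∃ m u v, f u ∈ P.U ∧ f v ∈ P.U ∧
    g = u * m * v ∧ P.Over (f m) (F.s i) := by
  obtain ⟨m, u, v, hu, hv, rfl, h1⟩ := cell_cases E hg
  refine ⟨m, u, v, hu, hv, rfl, h1.resolve_left fun hm => h ?_⟩
  simpa using mul_mem (mul_mem (P.U_le_B hu) (P.H_le_B hm)) (P.U_le_B hv)

theorem split_B {g : Γ} (hg : f g ∈ P.B) : ∃ u k, f u ∈ P.U ∧ f k ∈ P.H ∧ g = u * k := by
  obtain ⟨w, hw, m, u, v, hm, hu, hv, rfl⟩ := E.bruhat g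
  replace hv := P.Uw_le_U w hv
  obtain rfl : w = 1 := E.nd.cell_unique hm.1 (one_mem _) (by simpa using hm.bruhat_mem_cell hu hv)
    (P.mem_cell_one_iff.mpr hg)
  exact ⟨u * (m * v * m⁻¹), m, by simpa using mul_mem hu (P.H_conj_US (over_one_iff.mp hm) hv), over_one_iff.mp hm,
    by group⟩

theorem par (i : I) : Par ((P.PJ (F.orb i)).comap f) (P.B.comap f) (P.U.comap f) ((P.UJ (F.orb i)).comap f) where
  RU := Subgroup.comap_mono (P.UJ_le_U _)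
  UB := Subgroup.comap_mono P.U_le_B
  BP := Subgroup.comap_mono (P.B_le_PJ _)
  hR p hp r hr := by simpa using PJ_conj_UJ hp hr
  hU p hp r hr := by simpa using B_conj_U hp hr
  out p hp hp' u hu h := by
    obtain ⟨m, a, b, ha, hb, rfl, hm⟩ := cell_out E hp hp'
    obtain ⟨v, x, hv, hx, e⟩ := E.split_UJ (stI_orb i) (u := b * u * b⁻¹) (by simpa using B_conj_U (P.U_le_B hb) hu)
    have h1 : f (m * v * m⁻¹) ∈ P.B := P.U_le_B (P.UJ_le_U _ (by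
      simpa using PJ_conj_UJ (P.NJ_le_PJ _ (hm.mem_NJ (s_mem_WJ i))) hv))
    have h2 : f (m * x * m⁻¹) ∈ P.B := by
      have := mul_mem (inv_mem h1) (mul_mem (mul_mem (inv_mem (P.U_le_B ha)) h) (P.U_le_B ha))
      rw [← map_inv, ← map_inv, ← map_mul, ← map_mul, ← map_mul] at this
      convert this using 2
      rw [show x = v⁻¹ * (b * u * b⁻¹) by rw [e, inv_mul_cancel_left]]
      group
    rw [conj_eq_one_iff.mp (E.eq_one_of_V_B (VL_le_V _ (by simpa using hm.w0J_conj_UL hx)) h2), mul_one] at e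
    have := PJ_conj_UJ (inv_mem (P.U_le_PJ _ hb)) (e ▸ hv)
    simpa [mul_assoc] using this
  two p hp hp' p' hq hq' := by
    obtain ⟨m, a, b, ha, hb, rfl, hm⟩ := cell_out E hp hp'
    obtain ⟨m', a', b', ha', hb', rfl, hm'⟩ := cell_out E hq hq'
    exact ⟨a * a'⁻¹, by simpa using P.U_le_B (mul_mem ha (inv_mem ha')), b'⁻¹ * (m'⁻¹ * m) * b, by
      simpa using mul_mem (mul_mem (P.U_le_B (inv_mem hb')) (P.H_le_B (hm'.inv_mul_mem hm))) (P.U_le_B hb), by group⟩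

theorem good_of {i : I} {m : Γ} {w : Equiv.Perm ι} (hw : w ∈ F.WF) (hm : P.Over (f m) w)
    (h : R.IsPos (w⁻¹ (R.simple i))) :
    (∀ g ∈ (P.PJ (F.orb i)).comap f, g • (m : Γ ⧸ P.B.comap f) = m → g ∈ P.B.comap f) ∧ ∀ b ∈ P.B.comap f,
      ∃ r ∈ (P.UJ (F.orb i)).comap f, r • (m : Γ ⧸ P.B.comap f) = b • (m : Γ ⧸ P.B.comap f) := by
  refine ⟨fun g hg e => by_contra fun hg' => ?_, fun b hb => ?_⟩
  · obtain ⟨n, a, b, ha, hb, rfl, hn⟩ := cell_out E hg hg'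
    have h1 : f ((a * n * b * m)⁻¹ * m) ∈ P.B := QuotientGroup.eq.mp e
    have h2 := P.mul_mem_cell (P.U_le_B ha) (hn.mul_cell hm.1 (fun r hr hr' => (isPos_apply_iff_of_not_inSub
      (s_mem_WJ i) fun h' => hr' (isPos_of_orb (inv_mem hw) h hr h')).mpr hr) (P.mul_mem_cell (P.U_le_B hb) hm.mem_cell))
    have h3 := E.nd.cell_unique (mul_mem hn.1 hm.1) hm.1 h2 (by
      simpa [mul_assoc] using P.cell_mul_mem hm.mem_cell (inv_mem h1))
    exact not_isPos_s (F := F) i (by rw [mul_eq_right.mp h3]; exact R.isPos_simple i)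
  · obtain ⟨u, k, hu, hk, rfl⟩ := split_B E hb
    obtain ⟨v, x, hv, hx, rfl⟩ := E.split_UJ (stI_orb i) hu
    refine ⟨v, hv, QuotientGroup.eq.mpr ?_⟩
    have h1 := E.conjLe_UL_of_isPos (m := m⁻¹) (by simpa using hm.inv) h x hx
    have h2 := mul_mem (P.U_le_B h1) (P.H_le_B (hm.inv.conj_H hk))
    simpa [mul_assoc] using h2

theorem good (i : I) (x : Γ ⧸ P.B.comap f) : ∃ p ∈ (P.PJ (F.orb i)).comap f,
    (∀ g ∈ (P.PJ (F.orb i)).comap f, g • p • x = p • x → g ∈ P.B.comap f) ∧ ∀ b ∈ P.B.comap f,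
      ∃ r ∈ (P.UJ (F.orb i)).comap f, r • p • x = b • p • x := by
  obtain ⟨g, rfl⟩ := QuotientGroup.mk_surjective x
  obtain ⟨w, hw, m, u, v, hm, hu, hv, rfl⟩ := E.bruhat g
  rw [QuotientGroup.mk_mul_of_mem _ (show v ∈ P.B.comap f from P.U_le_B (P.Uw_le_U w hv))]
  have hu' : u⁻¹ ∈ (P.PJ (F.orb i)).comap f := inv_mem (P.U_le_PJ _ hu)
  by_cases h : R.IsPos (w⁻¹ (R.simple i))
  · refine ⟨u⁻¹, hu', ?_⟩
    rw [show u⁻¹ • ((u * m : Γ) : Γ ⧸ P.B.comap f) = m from congrArg _ (inv_mul_cancel_left u m)]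
    exact good_of E hw hm h
  · refine ⟨E.n i * u⁻¹, mul_mem (P.NJ_le_PJ _ ((E.over_n i).mem_NJ (s_mem_WJ i))) hu', ?_⟩
    rw [show (E.n i * u⁻¹) • ((u * m : Γ) : Γ ⧸ P.B.comap f) = (E.n i * m : Γ) from
      congrArg (QuotientGroup.mk (s := P.B.comap f)) (show E.n i * u⁻¹ * (u * m) = _ by group)]
    exact good_of E (mul_mem (s_mem i) hw) (by simpa using (E.over_n i).mul hm) (by
      rw [mul_inv_rev, s_inv]; exact (isPos_mul_s (inv_mem hw)).mpr h)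

variable [Finite Γ] {Ω : Type*} [Finite Ω] [MulAction Γ Ω] (h2 : T2.Two Γ Ω)
  (hB : ¬ ∀ a b : Ω, ∃ g : Γ, f g ∈ P.B ∧ g • a = b)
include h2 hB

theorem exists_U_smul {b : Γ} (hb : f b ∈ P.B) (a : Ω) : ∃ u, f u ∈ P.U ∧ u • a = b • a := by
  refine h2.same_orbit_of (P := P.B.comap f) (A := P.U.comap f) hB (fun g => ?_) a
  obtain ⟨w, hw, m, u, v, hm, hu, hv, rfl⟩ := E.bruhat g
  replace hv := P.U_le_B (P.Uw_le_U w hv)
  obtain ⟨u', k, hu', hk, e⟩ := split_B E (g := b⁻¹ * u) (by simpa using mul_mem (inv_mem hb) (P.U_le_B hu))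
  refine ⟨u' * u⁻¹, mul_mem hu' (inv_mem hu), v⁻¹ * (m⁻¹ * k * m) * v, ?_, ?_⟩
  · simpa using mul_mem (mul_mem (inv_mem hv) (P.H_le_B (hm.inv.conj_H hk))) hv
  · rw [← mul_assoc, ← mul_assoc, e]; group

theorem exists_max (hU : IsPGroup 2 (P.U.comap f)) [Nonempty Ω] :
    ∃ a : Ω, ∀ i u, f u ∈ P.U → ∃ r, f r ∈ P.UJ (F.orb i) ∧ r • a = u • a := by
  have := Fintype.ofFinite Γ
  obtain ⟨a, ha⟩ := Finite.exists_max fun b : Ω => Nat.card ↥(P.U.comap f ⊓ stabilizer Γ b)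
  exact ⟨a, fun i u hu => (par E i).exists_smul_eq h2 hB (good E i) hU ha hu⟩

omit hB [Finite Γ] [Finite Ω] in
/-- A point stabiliser does not lie in a minimal parabolic subgroup. -/
theorem not_le_PJ {a : Ω} {i j : I} {M : Subgroup Γ} (h1 : ∀ g, g • a = a → f g ∈ P.PJ (F.orb i)) (hj : E.n j • a ≠ a)
    (hM : ∀ g, f g ∈ P.U ∨ f g ∈ P.H ∨ P.Over (f g) (F.s i) → ConjLe g M M) (hM' : M ≤ P.U.comap f)
    (hn : ConjLe (E.n j) M ((P.UJ (F.orb i)).comap f)) : M = ⊥ := by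
  have h3 : ∀ g, g • a = a → ConjLe g M M := fun g hg => by
    obtain ⟨m, u, v, hu, hv, rfl, hm⟩ := cell_cases E (h1 g hg)
    exact ((hM u (Or.inl hu)).mul (hM m (Or.inr hm))).mul (hM v (Or.inl hv))
  obtain ⟨m, hm⟩ := E.exists_over (w0_mem_WF (F := F))
  refine (Subgroup.eq_bot_iff_forall _).mpr fun z hz => conj_eq_one_iff.mp (E.eq_one_of_V_B (g := m * z * m⁻¹)
    (by simpa [PreRGD.V] using hm.conj_US (T := {r | ¬ R.IsPos r}) (fun r hr => by simpa [isPos_w0_iff] using hr) (hM' hz))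
    (P.U_le_B ?_))
  by_cases e : m • a = a
  · exact hM' (h3 m e z hz)
  obtain ⟨g, e1, e2⟩ := h2 a (E.n j • a) a (m • a) hj.symm (Ne.symm e)
  have := (((par E i).hR g (h1 g e1)).mul hn).mul (h3 ((g * E.n j)⁻¹ * m)
    (by rw [mul_smul, inv_smul_eq_iff, mul_smul, e2])) z hz
  rw [mul_inv_cancel_left] at this
  exact P.UJ_le_U _ this

end Cfsg.Agent.T2I.TF
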