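/-
The groups `²F₄(q)`, `q ≥ 8`, have no faithful doubly transitive action.
-/
import Cfsg.Agent.Lib.T2I.TF4b
import Cfsg.Agent.Lib.T2I.A1
import Cfsg.Agent.Lib.T2X.TF4

set_option autoImplicit false

namespace Cfsg.Agent.T2I

open MulAction Cfsg.Lie Cfsg.Agent.Chev Cfsg.Agent.Chev.RSys Cfsg.Agent.Chev.PreRGD Cfsg.Agent.ChevM Cfsg.Agent.T2X.TF
open scoped commutatorElement

namespace TF

theorem conjLe_comm {G : Type*} [Group G] {g : G} {A : Subgroup G} (h : ConjLe g A A) : ConjLe g ⁅A, A⁆ ⁅A, A⁆ :=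
  (Subgroup.commutator_le (H₃ := (⁅A, A⁆ : Subgroup G).comap (MulAut.conj g).toMonoidHom)).mpr fun a ha b hb => by
    rw [Subgroup.mem_comap, map_commutatorElement]
    exact Subgroup.commutator_mem_commutator (h a ha) (h b hb)

theorem le_of_sup_comm {G : Type*} [Group G] [Finite G] {A U : Subgroup G} (hU : IsPGroup 2 U)
    (h : U ≤ A ⊔ ⁅U, U⁆) (hA : A ≤ U) : U ≤ A := by
  by_contra hn
  obtain ⟨l, h1, h2⟩ := exists_lin_of_ne_top hU (A := A.subgroupOf U) (by rwa [Ne, Subgroup.subgroupOf_eq_top])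
  have h3 : U ≤ l.ker.map U.subtype := h.trans (sup_le (fun a ha => ⟨⟨a, hA ha⟩, h2 _ ha, rfl⟩)
    (Subgroup.commutator_le.mpr fun a ha b hb => ⟨⁅(⟨a, ha⟩ : U), ⟨b, hb⟩⁆, by
      rw [SetLike.mem_coe, MonoidHom.mem_ker, map_commutatorElement, commutatorElement_eq_one_iff_mul_comm, mul_comm],
      rfl⟩))
  refine h1 (MonoidHom.ext fun u => ?_)
  obtain ⟨v, hv, e⟩ := h3 u.2
  rwa [← Subtype.ext e]

variable {K : Type*} [Field K] {φ : K →+* K} {σ : chevF4.group K →* chevF4.group K}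
  (h : IsTw chevF4 twF4 (xG chevF4 K) φ σ)

theorem inSub0_F4 {r : Fin chevF4.nroots} :
    (rs chevF4).InSub (h.fold.orb (repF4 0)) r ↔ rcN chevF4 r 1 = 0 ∧ rcN chevF4 r 2 = 0 := by
  have h1 : ∀ j, j ∈ h.fold.orb (repF4 0) ↔ (j : ℕ) = 3 ∨ (j : ℕ) = 0 := fun j => by
    rw [Fold.mem_orb_two (Fin.ext (by rw [IsTw.fold_π, Twist.νp_val, Twist.νp_val]; decide +kernel)), Fin.ext_iff,
      Fin.ext_iff, IsTw.fold_π, Twist.νp_val]
    rfl
  refine ⟨fun hr => ⟨hr ⟨1, by decide⟩ (by simp [h1]), hr ⟨2, by decide⟩ (by simp [h1])⟩, fun hr i hi => ?_⟩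
  obtain e | e : (i : ℕ) = 1 ∨ (i : ℕ) = 2 := by have : (i : ℕ) < 4 := i.2; rw [h1] at hi; omega
  all_goals change rcN chevF4 r i = 0; rw [e]
  exacts [hr.1, hr.2]

variable [Finite K] [CharP K 2] {e : ℕ} (hφ : ∀ t, φ t = t ^ e) (hφ2 : ∀ t, φ (φ t) ^ 2 = t) {Γ : Type*} [Group Γ]
  {f : Γ →* chevF4.group K} (E : h.fold.Emb f)

theorem comm_oneW {i : ℕ} (hi : i < 12) (a b w : List ℕ)
    (hc : ((allL [a, b] fun l => (allL l fun r => decide (r < chevF4.nroots) && !twF4.sg r) &&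
      (allL (oneW l) fun a => lvB chevF4 levF4 0 a.1) && (collF4 2 levF4.ord).check (oneW (l.map twF4.π)) (oneW l)) &&
      (collF4 2 levF4.ord).check (commW (oneW a) (oneW b)) (oneW (levF4.rep i :: w)) &&
      allL (oneW w) fun a => lvB chevF4 levF4 i a.1 && a.1 != levF4.rep i) = true) :
    ∃ g ∈ ⁅(h.filt levOK_F4 E).F 0, (h.filt levOK_F4 E).F 0⁆,
      g ∈ (h.filt levOK_F4 E).F i ∧ (h.filt levOK_F4 E).c i g ≠ 0 := by
  rw [Bool.and_eq_true, Bool.and_eq_true, allL_iff] at hc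
  have h1 := hc.1.1 a (by simp)
  have h2 := hc.1.1 b (by simp)
  rw [Bool.and_eq_true, Bool.and_eq_true] at h1 h2
  obtain ⟨a', ha, ea⟩ := h.exists_oneW E h1.1.1 h1.1.2 h1.2
  obtain ⟨b', hb, eb⟩ := h.exists_oneW E h2.1.1 h2.1.2 h2.2
  have h3 := h.filt_word levOK_F4 E hi (g := ⁅a'⁻¹, b'⁻¹⁆) (v := 0) (P := [(1, [])]) (w := oneW w) (by
    simpa [commutatorElement_def, ea, eb, oneW] using
      h.chv.rel.comm_of_check (collFor_F4 2 levF4.ord) (charOK_of K 2) 0 hc.1.2) hc.2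
  exact ⟨_, Subgroup.commutator_mem_commutator (inv_mem ha) (inv_mem hb), h3.1, by simp [h3.2]⟩

include hφ2 in
theorem comm_five (hK : 3 ≤ Nat.card K) : ∃ g ∈ ⁅(h.filt levOK_F4 E).F 0, (h.filt levOK_F4 E).F 0⁆,
    g ∈ (h.filt levOK_F4 E).F 5 ∧ (h.filt levOK_F4 E).c 5 g ≠ 0 := by
  obtain ⟨u, h0, h1⟩ : ∃ u : K, u ≠ 0 ∧ u ≠ 1 := by
    classical
    have := Fintype.ofFinite K
    obtain ⟨u, -, hu⟩ := Finset.exists_mem_notMem_of_card_lt_card (s := {0, 1}) (t := (Finset.univ : Finset K))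
      (Finset.card_le_two.trans_lt (by rwa [Nat.card_eq_fintype_card] at hK))
    exact ⟨u, by simpa using hu⟩
  obtain ⟨u, hu⟩ : ∃ u : K, φ u ^ 2 + u ≠ 0 := by
    by_contra hn
    push Not at hn
    have h2 : ∀ u, φ u ^ 2 = u := fun u => by rw [eq_neg_of_add_eq_zero_left (hn u), CharTwo.neg_eq]
    have h3 : φ u = u := (h2 (φ u)).symm.trans (hφ2 u)
    have h4 := h2 u
    rw [h3, sq] at h4
    exact h1 (mul_left_cancel₀ h0 (h4.trans (mul_one u).symm))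
  obtain ⟨y, hy, ey⟩ := h.exists_oneW E (l := [24, 33]) (by decide +kernel) (by decide +kernel) (by decide +kernel)
  obtain ⟨v, hv, ev⟩ := h.exists_oneW E (l := [28, 30]) (by decide +kernel) (by decide +kernel) (by decide +kernel)
  obtain ⟨v', ev'⟩ := h.exists_bW hφ2 E 0 u
  have ok := h.orbOK_F4 (r := levOK_F4.repF (i := 2) (by decide)) (by decide +kernel)
  have ey' := h.map_Y E ok (h.iter_F4 hφ2 _ u)
  have hy' := (h.filt_Y levOK_F4 E (by decide) ok (h.iter_F4 hφ2 (levOK_F4.repF (i := 2) (by decide)) u)).1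
  set y' := h.Y E (levF4.rep 2) 2 u
  let p : ℕ → K := fun k => [u, φ u].getD k 0
  have e1 : f y' = evS (xG chevF4 K) p [(24, [(1, [0])]), (33, [(1, [1])])] := by
    rw [show f y' = _ from ey', dl_two, h.σ_char2]
    simp [p, show twF4.e (levOK_F4.repF (i := 2) (by decide)) = 1 by decide +kernel]
    rfl
  have e2 : f v' = evS (xG chevF4 K) p [(28, [(1, [0])]), (30, [(1, [1, 1])])] := by
    simp [ev', bW, p, h.chv.rel.zero (show 27 < chevF4.nroots by decide),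
      h.chv.rel.zero (show 25 < chevF4.nroots by decide), sq]
  rw [evS_oneW, ← evS_oneW p] at ey ev
  have h3 := h.filt_word levOK_F4 E (i := 5) (by decide) (g := ⁅y⁻¹, v'⁻¹⁆ * ⁅v⁻¹, y'⁻¹⁆) (v := p)
    (P := [(1, [1, 1]), (1, [0])]) (w := [(35, [(1, [1]), (1, [0])]), (32, [(1, [0]), (1, [0, 0])]),
      (37, [(1, [1]), (1, [1, 1])]), (36, [(1, [0]), (1, [0, 1])]), (42, [(1, [1, 1]), (1, [0, 1, 1])]),
      (38, [(1, [1, 1]), (1, [0, 1])]), (43, [(1, [0, 1, 1]), (1, [0, 0])]), (40, [(1, [0, 1, 1]), (1, [0, 0])]),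
      (46, [(1, [0, 1, 1]), (1, [0, 0, 0])]), (44, [(1, [1, 1, 1]), (1, [0, 1])]),
      (47, [(1, [0, 1, 1]), (1, [0, 0, 0])])]) (by
        rw [← evS_eq_of_check h.chv.rel (collFor_F4 2 levF4.ord) (charOK_of K 2) p
          (w := commW (oneW [24, 33]) [(28, [(1, [0])]), (30, [(1, [1, 1])])] ++
            commW (oneW [28, 30]) [(24, [(1, [0])]), (33, [(1, [1])])]) (by decide +kernel)]
        simp only [commW, evS_append, commutatorElement_def, map_mul, map_inv, inv_inv, ey, ev, e1, e2]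
        rw [h.chv.rel.evS_invW, h.chv.rel.evS_invW, h.chv.rel.evS_invW, h.chv.rel.evS_invW] <;> decide +kernel)
    (by decide +kernel)
  refine ⟨_, mul_mem (Subgroup.commutator_mem_commutator (inv_mem hy) (inv_mem (h.filt_bW0 E ev').1))
    (Subgroup.commutator_mem_commutator (inv_mem hv) (inv_mem (Filt.le_zero _ 2 hy'))), h3.1, ?_⟩
  simpa [h3.2, p, sq] using hu

include hφ hφ2 in
theorem le_of_elt {A : Subgroup Γ} (hA : ∀ t ∈ (h.filt levOK_F4 E).H, ConjLe t A A) {k : ℕ}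
    (h1 : ∀ i, k ≤ i → i < 12 → (h.filt levOK_F4 E).F i ≤ A ∨
      ∃ g ∈ A, g ∈ (h.filt levOK_F4 E).F i ∧ (h.filt levOK_F4 E).c i g ≠ 0) : (h.filt levOK_F4 E).F k ≤ A := by
  refine Filt.le_of_rep fun i hi hi' a ha => ?_
  rcases h1 i hi hi' with h2 | ⟨g, hg, h2, h3⟩
  · exact ⟨a, ha, h2 ha, rfl⟩
  by_cases e : (h.filt levOK_F4 E).c i a = 0
  · exact ⟨1, one_mem _, one_mem _, (Filt.c_one hi').trans e.symm⟩
  obtain ⟨t, ht, e'⟩ := h.scale_F4 hφ hφ2 E (GS_xG chevF4 K) ChevM.center_eq_bot hi' _ (div_ne_zero e h3)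
  exact ⟨_, Filt.H_F _ t ht i g h2, hA t ht g hg, by rw [Filt.c_conj _ t ht i hi' g h2, e', div_mul_cancel₀ _ h3]⟩

include hφ hφ2 in
theorem F3_le (hK : 3 ≤ Nat.card K) : (h.filt levOK_F4 E).F 3 ≤ ⁅(h.filt levOK_F4 E).F 0, (h.filt levOK_F4 E).F 0⁆ := by
  refine le_of_elt h hφ hφ2 E (fun t ht => conjLe_comm (Filt.H_F _ t ht 0)) fun i h1 h2 => Or.inr ?_
  interval_cases i
  exacts [comm_oneW h E h2 [27, 25, 28] [24, 33] [34, 29, 41, 32, 37, 42, 40, 46] (by decide +kernel),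
    comm_oneW h E h2 [28, 30] [24, 33] [41, 31, 35, 32, 37, 36, 42, 38, 43, 46, 44] (by decide +kernel),
    comm_five h hφ2 E hK,
    comm_oneW h E h2 [27, 25, 28] [35, 31, 40] [37] (by decide +kernel),
    comm_oneW h E h2 [24, 33] [41, 29, 44] [42] (by decide +kernel),
    comm_oneW h E h2 [34, 26, 36] [41, 29, 44] [43] (by decide +kernel),
    comm_oneW h E h2 [41, 29, 44] [35, 31, 40] [45] (by decide +kernel),
    comm_oneW h E h2 [41, 29, 44] [32, 37] [46] (by decide +kernel),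
    comm_oneW h E h2 [32, 37] [36, 42] [47] (by decide +kernel)]

include hφ hφ2 in
theorem exists_tor (hK : 3 ≤ Nat.card K) : ∃ t ∈ (h.filt levOK_F4 E).H, (h.filt levOK_F4 E).χ 2 t ≠ 1 ∧
    ∀ g, f g ∈ h.chv.rel.pre.UL (h.fold.orb (repF4 1)) → Commute g t := by
  have := Fintype.ofFinite K
  have : Nontrivial Kˣ := Finite.one_lt_card_iff_nontrivial.mp (by rw [Nat.card_units]; omega)
  obtain ⟨v, hv⟩ := exists_ne (1 : Kˣ)
  obtain ⟨t, ht, e1, e2⟩ := h.exists_χ hφ levOK_F4 E (h.tor_mem_F4 hφ2 E (GS_xG chevF4 K) ChevM.center_eq_bot)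
    [1, 2, 3, 2] v
  refine ⟨t, ht, fun e => hv ?_, fun g hg => Commute.of_map E.inj (commute_US (fun s hs u => ?_) (h.UL_F4 ▸ hg))⟩
  · rw [e2 2 (by decide), show exN chevF4 twF4 [1, 2, 3, 2] 2 (levF4.rep 2) = [1, 0] by decide +kernel] at e
    simpa [evQ] using e
  · have h1 := h.chv.rel.actsBy_torus h.chv.rel.r3_of_finite (dl h.σT 2 (cot chevF4 [1, 2, 3, 2] v)) s u
    rw [h.chi_dl_cot hφ, evQ_zero _ (by clear h1; revert s; decide +kernel), zpow_zero, Units.val_one, one_mul,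
      mul_inv_eq_iff_eq_mul] at h1
    rw [e1]
    exact h1.symm

include hφ hφ2 E in
theorem exists_fixed (hK : 3 ≤ Nat.card K) {Ω : Type*} [Finite Ω] [Nonempty Ω] [MulAction Γ Ω] (h2 : T2.Two Γ Ω)
    (hB : ¬ ∀ a b : Ω, ∃ g : Γ, f g ∈ h.chv.rel.pre.B ∧ g • a = b) :
    ∃ a : Ω, ∀ g, f g ∈ h.chv.rel.pre.B → g • a = a := by
  have := IsTw.finite_of_emb h (GS_xG chevF4 K) E
  set S := h.filt levOK_F4 E
  have hU : ∀ {g}, g ∈ S.F 0 ↔ f g ∈ h.chv.rel.pre.U := by simp [S, h.filt_F_zero]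
  have hp : IsPGroup 2 (h.chv.rel.pre.U.comap f) := h.isPGroup_U E 2 repF4
  obtain ⟨a, ha⟩ := exists_max E h2 hB hp
  set N := (S.F 0 ⊓ stabilizer Γ a) ⊔ ⁅S.F 0, S.F 0⁆
  have h1 : N ≤ S.F 0 := sup_le inf_le_left (Subgroup.commutator_le_self _)
  have h3 : ∀ u ∈ S.F 0, ConjLe u N N := fun u hu g hg => by
    have := mul_mem (Subgroup.mem_sup_right (S := S.F 0 ⊓ stabilizer Γ a)
      (Subgroup.commutator_mem_commutator hu (h1 hg))) hg
    rwa [commutatorElement_def, inv_mul_cancel_right] at this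
  have h4 : ∀ t ∈ S.H, ConjLe t N N := fun t ht => by
    obtain ⟨u, hu, e⟩ := exists_U_smul E h2 hB (H_le_B _ ht) a
    have h5 : ConjLe (u⁻¹ * t) (S.F 0) (S.F 0) := (ConjLe.of_mem (inv_mem (hU.mpr hu))).mul (S.H_F t ht 0)
    have h6 : u⁻¹ * t ∈ stabilizer Γ a := by rw [mem_stabilizer_iff, mul_smul, ← e, inv_smul_smul]
    have := (h3 u (hU.mpr hu)).mul (ConjLe.sup (A := S.F 0 ⊓ stabilizer Γ a) (C := S.F 0 ⊓ stabilizer Γ a)
      (fun g hg => ⟨h5 g hg.1, ConjLe.of_mem h6 g hg.2⟩) (conjLe_comm h5))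
    rwa [mul_inv_cancel_left] at this
  have h5 : S.F 3 ≤ N := (F3_le h hφ hφ2 E hK).trans le_sup_right
  have h6 : ∀ i u, u ∈ S.F 0 → ∃ r, f r ∈ h.chv.rel.pre.UJ (h.fold.orb i) ∧ r * u ∈ N := fun i u hu => by
    obtain ⟨r, hr, e⟩ := ha i u (hU.mp hu)
    exact ⟨r⁻¹, by simpa using hr, Subgroup.mem_sup_left (Subgroup.mem_inf.mpr
      ⟨mul_mem (inv_mem (hU.mpr (UJ_le_U _ _ hr))) hu, by rw [mem_stabilizer_iff, mul_smul, ← e, inv_smul_smul]⟩)⟩
  have h7 : S.F 2 ≤ N := le_of_elt h hφ hφ2 E h4 fun i hi hi' => by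
    rcases hi.eq_or_lt with rfl | hi
    swap
    · exact Or.inl ((S.F_mono hi).trans h5)
    obtain ⟨t, ht, e, hc⟩ := exists_tor h hφ hφ2 E hK
    obtain ⟨y, hy, ey⟩ := OrdB.surj_F4 h hφ2 E hi' (by decide) (by decide) 1
    obtain ⟨r, hr, h8⟩ := h6 (repF4 0) y (S.le_zero 2 hy)
    obtain ⟨v, x, hv, hx, rfl⟩ := E.split_UJ (Fold.stI_orb (repF4 1)) (UJ_le_U _ _ hr)
    have hx' : f x ∈ h.chv.rel.pre.UJ (h.fold.orb (repF4 0)) := USub_mono (fun s hs => And.intro hs.1 fun h' => by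
      replace hs := hs.2
      rw [h.inSub_F4] at hs
      rw [inSub0_F4] at h'
      revert s; decide +kernel) hx
    have h9 : f v ∈ h.chv.rel.pre.UJ (h.fold.orb (repF4 0)) ⊓ h.chv.rel.pre.UJ (h.fold.orb (repF4 1)) :=
      ⟨by simpa using mul_mem hr (inv_mem hx'), hv⟩
    rw [UJ, UJ, E.nd.US_inf halfSpace_pos (closed_pos_not_inSub _) (closed_pos_not_inSub _) (fun _ h => h.1)
      fun _ h => h.1] at h9
    have h10 : v ∈ S.F 3 := USub_mono (fun s hs => by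
      obtain ⟨⟨a1, a2⟩, -, a3⟩ := hs
      rw [h.inSub_F4] at a3
      rw [inSub0_F4] at a2
      rw [rs_isPos_iff_le] at a1
      rw [mem_Lv_iff]
      revert s; decide +kernel) h9
    refine Or.inr ⟨t * y * t⁻¹ * y⁻¹, ?_, mul_mem (S.H_F t ht 2 y hy) (inv_mem hy), ?_⟩
    · have := h3 _ (inv_mem (hU.mpr (UL_le_U _ _ hx))) _
        (mul_mem (mul_mem (inv_mem (h5 (S.H_F t ht 3 v h10))) (mul_mem (h4 t ht _ h8) (inv_mem h8))) (h5 h10))
      convert this using 1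
      have e1 : t⁻¹ * t * x = t⁻¹ * x * t := by rw [mul_assoc, ← (hc x hx).eq, mul_assoc]
      calc _ = x⁻¹ * (t * (t⁻¹ * t * x) * y * t⁻¹ * y⁻¹ * x⁻¹) * x⁻¹⁻¹ * 1 := by
            rw [e1, mul_assoc t⁻¹, (hc x hx).eq]; simp only [mul_assoc, mul_inv_cancel_left, inv_mul_cancel_left]
            rw [← mul_assoc t x, ← (hc x hx).eq]; group
        _ = _ := by group
    · rw [Filt.c_comm (show 2 < 12 by decide) ht hy, ey, mul_one]
      exact sub_ne_zero.mpr e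
  have h8 : S.F 0 ≤ S.F 0 ⊓ stabilizer Γ a := le_of_sup_comm (h.filt_F_zero levOK_F4 E ▸ hp) (fun u hu => by
    obtain ⟨r, hr, e⟩ := h6 (repF4 1) u hu
    exact (N.mul_mem_cancel_left (h7 ((h.mem_filt_F levOK_F4 E).mpr (h.UJ_F4 ▸ hr)))).mp e) inf_le_left
  refine ⟨a, fun g hg => ?_⟩
  obtain ⟨u, hu, e⟩ := exists_U_smul E h2 hB hg a
  exact e.symm.trans (h8 (hU.mpr hu)).2

include hφ hφ2 E in
theorem trans_B (hK : 3 ≤ Nat.card K) {Ω : Type*} [Finite Ω] [Nontrivial Ω] [MulAction Γ Ω] (h2 : T2.Two Γ Ω) :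
    ∀ a b : Ω, ∃ g : Γ, f g ∈ h.chv.rel.pre.B ∧ g • a = b := by
  by_contra hB
  obtain ⟨a, ha⟩ := exists_fixed h hφ hφ2 E hK h2 hB
  obtain ⟨J, hJ, e⟩ := E.exists_PJ (A := stabilizer Γ a) ha
  have key : ∀ (i j : Fin 2) (k : ℕ) (hk : k < 12), (∀ l, l ≠ j → l = i) → k ≠ 4 → repF4 j ∉ J →
      (∀ r ∈ Lv chevF4 levF4 k, h.fold.s (repF4 i) r ∈ Lv chevF4 levF4 k) →
      (∀ r ∈ Lv chevF4 levF4 k, (rs chevF4).IsPos (h.fold.s (repF4 j) r) ∧
        ¬ (rs chevF4).InSub (h.fold.orb (repF4 i)) (h.fold.s (repF4 j) r)) → False := fun i j k hk hij h4 hj h5 h6 => by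
    have h7 := not_le_PJ E h2 (a := a) (i := repF4 i) (j := repF4 j) (M := (h.filt levOK_F4 E).F k)
      (fun g hg => PJ_mono _ (fun l hl => ?_) ((e g).mp hg)) (fun hn => hj ((E.n_mem_PJ_iff hJ).mp ((e _).mp hn)))
      (fun g hg => ?_) ((Filt.le_zero _ k).trans (h.filt_F_zero levOK_F4 E).le) (E.conjLe_US (E.over_n _) h6)
    · obtain ⟨z, hz, ez⟩ := h.exists_oneW E (l := [44, 47]) (by decide +kernel) (by decide +kernel) (by decide +kernel)
      have h8 := h.filt_word levOK_F4 E (i := 11) (by decide) (P := [(1, [])]) (w := oneW [47]) ez (by decide +kernel)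
      rw [Subgroup.mem_bot.mp (h7.le (Filt.F_mono _ (by omega) h8.1)), Filt.c_one (show 11 < 12 by decide)] at h8
      simpa using h8.2
    · obtain ⟨b, hb⟩ := h.hrep_F4 l
      rwa [← hij b fun e => hj (hJ.orb_subset hl (Fold.orb_eq hb ▸ e ▸ Fold.mem_orb_self _))]
    · rcases hg with hg | hg | hg
      exacts [conjLe_U h levOK_F4 E hg k, conjLe_B h levOK_F4 E (H_le_B _ hg) k, E.conjLe_US hg h5]
  by_cases h0 : repF4 0 ∈ J
  · by_cases h1 : repF4 1 ∈ J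
    · obtain ⟨b, hb⟩ := exists_ne a
      obtain ⟨g, rfl⟩ := h2.trans a b
      refine hb ((e g).mpr (PJ_mono _ (fun l _ => ?_) (E.full g)))
      obtain ⟨b, hb⟩ := h.hrep_F4 l
      fin_cases b
      exacts [hJ.orb_subset h0 hb, hJ.orb_subset h1 hb]
    · exact key 0 1 10 (by decide) (by decide) (by decide) h1
        (fun s => by rw [mem_Lv_iff, mem_Lv_iff, s0_F4]; revert s; decide +kernel)
        (fun s => by rw [mem_Lv_iff, inSub0_F4, rs_isPos_iff_le, h.s_F4]; revert s; decide +kernel)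
  · exact key 1 0 11 (by decide) (by decide) (by decide) h0
      (fun s => by rw [mem_Lv_iff, mem_Lv_iff, h.s_F4]; revert s; decide +kernel)
      (fun s => by rw [mem_Lv_iff, h.inSub_F4, rs_isPos_iff_le, s0_F4]; revert s; decide +kernel)

end TF

/-- `²F₄(q)` with `q ≥ 8` has no faithful doubly transitive action. -/
theorem not_two_TF4 {K : Type*} [Field K] [Fintype K] {m : ℕ} (hm : 1 ≤ m) (hK : Fintype.card K = 2 ^ (2 * m + 1))
    {Ω : Type*} [Finite Ω] [Nontrivial Ω] [MulAction (twistedF4 K (2 ^ m)) Ω] [FaithfulSMul (twistedF4 K (2 ^ m)) Ω]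
    (h2 : T2.Two (twistedF4 K (2 ^ m)) Ω) : False := by
  refine T2X.not_B_TF4 hm hK h2 ?_
  obtain ⟨_, φ, hφ, hφ2⟩ := exists_frob_F4 hK
  exact TF.trans_B (isTw_adj (twOK_F4 K) φ) hφ hφ2 (emb_twistedF4 φ hφ hφ2) (by
    rw [Nat.card_eq_fintype_card, hK]
    exact le_trans (by decide) (Nat.pow_le_pow_right two_pos (show 2 ≤ _ by omega))) h2

end Cfsg.Agent.T2I
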